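import Cfsg.Agent.Chev.SpSlim.Base

/-!
Subgroups of `Sp` containing root subgroups: the set of their centres.
-/

set_option autoImplicit false

namespace CfsgLib.SpGen3

open Matrix CfsgLib.SpGeom CfsgLib.Chev.SpSlim

universe u

variable {F : Type u} [Field F] {n : ℕ}

local notation "V" => (Fin n ⊕ Fin n → F)
local notation "Sp" => Matrix.symplecticGroup (Fin n) F
local notation "f" => Cfsg.sympForm n F

/-- The vectors whose root subgroup lies in `K`. -/
def rootSet (K : Subgroup (Matrix.symplecticGroup (Fin n) F)) : Set (Fin n ⊕ Fin n → F) :=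
  {w | ∀ c : F, tv w c ∈ K}

/-- The form against `u`, as a functional. -/
def formLeft (u : Fin n ⊕ Fin n → F) : (Fin n ⊕ Fin n → F) →ₗ[F] F where
  toFun x := f x u
  map_add' a b := form_add_left a b u
  map_smul' c a := form_smul_left c a u

variable {K : Subgroup (Matrix.symplecticGroup (Fin n) F)}

theorem mem_smul {x : V} (hx : x ∈ rootSet K) (t : F) : t • x ∈ rootSet K := fun c => by
  rw [tv_smul]; exact hx _

theorem mem_zero : (0 : V) ∈ rootSet K := fun c => by
  rw [tv_vec_zero]; exact one_mem K

theorem mem_ap {A : Sp} (hA : A ∈ K) {x : V} (hx : x ∈ rootSet K) : ap A x ∈ rootSet K := fun c => by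
  rw [← tv_conj']; exact mul_mem (mul_mem hA (hx c)) (inv_mem hA)

theorem mem_add_smul {x y : V} (hx : x ∈ rootSet K) (hy : y ∈ rootSet K) (h : f x y ≠ 0) (t : F) :
    x + t • y ∈ rootSet K := by
  have e := mem_ap (hy (t / f x y)) hx
  rwa [ap, tv_mulVec, div_mul_cancel₀ _ h] at e

theorem mem_add {x y : V} (hx : x ∈ rootSet K) (hy : y ∈ rootSet K) (h : f x y ≠ 0) :
    x + y ∈ rootSet K := by
  simpa using mem_add_smul hx hy h 1

theorem mem_comb {x y : V} (hx : x ∈ rootSet K) (hy : y ∈ rootSet K) (h : f x y ≠ 0) (r t : F) :
    r • x + t • y ∈ rootSet K := by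
  by_cases hr : r = 0
  · subst hr; simpa using mem_smul hy t
  · have e := mem_smul (mem_add_smul hx hy h (t / r)) r
    rwa [smul_add, smul_smul, mul_div_cancel₀ _ hr] at e

/-- Two vectors of `rootSet K` are linked: they pair, or have a common neighbour there. -/
def Linked (K : Subgroup (Matrix.symplecticGroup (Fin n) F)) (x y : Fin n ⊕ Fin n → F) : Prop :=
  f x y ≠ 0 ∨ ∃ e ∈ rootSet K, f x e ≠ 0 ∧ f e y ≠ 0

theorem f_ne_symm {x y : V} (h : f x y ≠ 0) : f y x ≠ 0 := by
  rw [form_skew]; exact neg_ne_zero.2 h

theorem linked_symm {x y : V} (h : Linked K x y) : Linked K y x := by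
  rcases h with h | ⟨e, he, h1, h2⟩
  · exact Or.inl (f_ne_symm h)
  · exact Or.inr ⟨e, he, f_ne_symm h2, f_ne_symm h1⟩

theorem linked_step {a x y : V} (hx : x ∈ rootSet K) (h : Linked K a x) (hxy : f x y ≠ 0) :
    Linked K a y := by
  rcases h with h | ⟨e, he, h1, h2⟩
  · exact Or.inr ⟨x, hx, h, hxy⟩
  · by_cases hax : f a x = 0
    · by_cases hey : f e y = 0
      · refine Or.inr ⟨e + x, mem_add he hx h2, ?_, ?_⟩
        · rwa [form_add_right, hax, add_zero]
        · rwa [form_add_left, hey, zero_add]
      · exact Or.inr ⟨e, he, h1, hey⟩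
    · exact Or.inr ⟨x, hx, hax, hxy⟩

/-- The orbit of a vector under powers of an element of `K` is one linked family. -/
theorem linked_all {v : Sp} (hv : v ∈ K) {a : V} (ha : a ∈ rootSet K) (hva : f a (ap v a) ≠ 0)
    (hspan : Submodule.span F (Set.range fun k : ℕ => ap (v ^ k) a) = ⊤) {x y : V}
    (hx : x ∈ rootSet K) (hy : y ∈ rootSet K) (hx0 : x ≠ 0) (hy0 : y ≠ 0) : Linked K x y := by
  have hS : ∀ k : ℕ, ap (v ^ k) a ∈ rootSet K := fun k => mem_ap (pow_mem hv k) ha
  have hadj : ∀ k : ℕ, f (ap (v ^ k) a) (ap (v ^ (k + 1)) a) ≠ 0 := fun k => by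
    rw [pow_succ, ap_mul, ap, ap, form_mulVec]
    exact hva
  have hD : ∀ k : ℕ, Linked K a (ap (v ^ k) a) := by
    intro k
    induction k with
    | zero => rw [pow_zero, ap_one]; exact Or.inr ⟨_, hS 1, by simpa using hva, by
        rw [pow_one]; exact f_ne_symm hva⟩
    | succ k ih => exact linked_step (hS k) ih (hadj k)
  have hall : ∀ z : V, z ∈ rootSet K → z ≠ 0 → Linked K a z := by
    intro z _ hz0
    obtain ⟨k, hk⟩ : ∃ k : ℕ, f (ap (v ^ k) a) z ≠ 0 := by
      by_contra hno
      push Not at hno
      obtain ⟨w, hw⟩ := exists_form_ne_zero hz0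
      apply hw
      rw [form_skew, neg_eq_zero]
      have hle : (⊤ : Submodule F V) ≤ LinearMap.ker (formLeft z) := by
        rw [← hspan, Submodule.span_le]
        rintro _ ⟨k, rfl⟩
        exact hno k
      exact hle (Submodule.mem_top (x := w))
    exact linked_step (hS k) (hD k) hk
  have hxa : Linked K x a := linked_symm (hall x hx hx0)
  rcases hall y hy hy0 with h | ⟨e, he, h1, h2⟩
  · exact linked_step ha hxa h
  · exact linked_step he (linked_step ha hxa h1) h2

section spanning

variable {v : Matrix.symplecticGroup (Fin n) F} {a : Fin n ⊕ Fin n → F}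

theorem span_rootSet (hv : v ∈ K) (ha : a ∈ rootSet K)
    (hspan : Submodule.span F (Set.range fun k : ℕ => ap (v ^ k) a) = ⊤) :
    Submodule.span F (rootSet K) = ⊤ :=
  top_le_iff.1 (hspan ▸ Submodule.span_mono (by
    rintro _ ⟨k, rfl⟩
    exact mem_ap (pow_mem hv k) ha))

theorem exists_pair_ne (hsp : Submodule.span F (rootSet K) = ⊤) {w : V} (hw : w ≠ 0) :
    ∃ e ∈ rootSet K, f e w ≠ 0 := by
  by_contra hno
  push Not at hno
  obtain ⟨z, hz⟩ := exists_form_ne_zero hw
  apply hz
  rw [form_skew, neg_eq_zero]
  have hle : (⊤ : Submodule F V) ≤ LinearMap.ker (formLeft w) := by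
    rw [← hsp, Submodule.span_le]
    exact fun e he => hno e he
  exact hle (Submodule.mem_top (x := z))

end spanning

/-- More than two scalars: a connected spanning root set is closed under addition. -/
theorem eq_top_of_large (hF : ∀ r : F, ∃ s : F, s ≠ 0 ∧ s ≠ r)
    (hsp : Submodule.span F (rootSet K) = ⊤)
    (hlink : ∀ x y : V, x ∈ rootSet K → y ∈ rootSet K → x ≠ 0 → y ≠ 0 → Linked K x y) :
    K = ⊤ := by
  have hadd : ∀ x y : V, x ∈ rootSet K → y ∈ rootSet K → x + y ∈ rootSet K := by
    intro x y hx hy
    by_cases hw : x + y = 0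
    · rw [hw]; exact mem_zero
    by_cases hxy : f x y ≠ 0
    · exact mem_add hx hy hxy
    push Not at hxy
    by_cases hx0 : x = 0
    · rwa [hx0, zero_add]
    by_cases hy0 : y = 0
    · rwa [hy0, add_zero]
    -- a neighbour of both which also pairs with the sum
    obtain ⟨e, he, hex, hey, hew⟩ : ∃ e ∈ rootSet K, f e x ≠ 0 ∧ f e y ≠ 0 ∧ f e (x + y) ≠ 0 := by
      obtain ⟨e, he, hex, hey⟩ : ∃ e ∈ rootSet K, f e x ≠ 0 ∧ f e y ≠ 0 := by
        rcases hlink x y hx hy hx0 hy0 with h | ⟨e, he, h1, h2⟩
        · exact absurd hxy h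
        · exact ⟨e, he, f_ne_symm h1, h2⟩
      by_cases hew : f e (x + y) = 0
      · obtain ⟨e', he', hew'⟩ := exists_pair_ne hsp hw
        -- arrange that `e'` pairs with `e`
        obtain ⟨e', he', hew', hee⟩ : ∃ e' ∈ rootSet K, f e' (x + y) ≠ 0 ∧ f e' e ≠ 0 := by
          by_cases hee : f e' e = 0
          · rw [form_add_right] at hew'
            by_cases h1 : f e' x = 0
            · rw [h1, zero_add] at hew'
              refine ⟨e' + y, mem_add he' hy hew', ?_, ?_⟩
              · simpa [form_add_left, form_add_right, form_skew x y, hxy, h1, form_self] using hew'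
              · rw [form_add_left, hee, zero_add]; exact f_ne_symm hey
            · refine ⟨e' + x, mem_add he' hx h1, ?_, ?_⟩
              · simpa [form_add_left, form_add_right, hxy, form_self] using hew'
              · rw [form_add_left, hee, zero_add]; exact f_ne_symm hex
          · exact ⟨e', he', hew', hee⟩
        rw [form_add_right] at hew hew'
        have key : ∃ s : F, f e' x + s * f e x ≠ 0 ∧ f e' y + s * f e y ≠ 0 := by
          by_cases hy' : f e' y = 0
          · obtain ⟨s, hs0, hs⟩ := hF (-f e' x / f e x)
            refine ⟨s, fun h => hs ?_, ?_⟩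
            · rw [eq_div_iff hex]; linear_combination h
            · rw [hy', zero_add]; exact mul_ne_zero hs0 hey
          · by_cases hx' : f e' x = 0
            · obtain ⟨s, hs0, hs⟩ := hF (-f e' y / f e y)
              refine ⟨s, by rw [hx', zero_add]; exact mul_ne_zero hs0 hex, fun h => hs ?_⟩
              rw [eq_div_iff hey]; linear_combination h
            · exact ⟨0, by simpa using hx', by simpa using hy'⟩
        obtain ⟨s, hs1, hs2⟩ := key
        refine ⟨e' + s • e, mem_add_smul he' he hee s, ?_, ?_, ?_⟩
        · rwa [form_add_left, form_smul_left]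
        · rwa [form_add_left, form_smul_left]
        · simp only [form_add_left, form_smul_left, form_add_right]
          intro h
          exact hew' (by linear_combination h - s * hew)
      · exact ⟨e, he, hex, hey, hew⟩
    have h1 : e + x ∈ rootSet K := mem_add he hx hex
    have h2 : e + x + y ∈ rootSet K := mem_add h1 hy (by rwa [form_add_left, hxy, add_zero])
    have h3 := mem_add_smul h2 he (by
      rw [add_assoc, form_add_left, form_self, zero_add]; exact f_ne_symm hew) (-1)
    have he' : x + y = e + x + y + (-1 : F) • e := by rw [neg_one_smul]; abel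
    rwa [he']
  refine eq_top_of_tv K fun w c => ?_
  have hw : w ∈ rootSet K := by
    have hmem : w ∈ Submodule.span F (rootSet K) := hsp ▸ Submodule.mem_top
    induction hmem using Submodule.span_induction with
    | mem x hx => exact hx
    | zero => exact mem_zero
    | add x y _ _ hx hy => exact hadd x y hx hy
    | smul r x _ hx => exact mem_smul hx r
  exact hw c

/-- Two scalars: a totally isotropic plane in a connected spanning root set is enough. -/
theorem eq_top_of_two (hF : ∀ r : F, r = 0 ∨ r = 1)
    (hsp : Submodule.span F (rootSet K) = ⊤)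
    (hlink : ∀ x y : V, x ∈ rootSet K → y ∈ rootSet K → x ≠ 0 → y ≠ 0 → Linked K x y)
    {p q : V} (hp : p ∈ rootSet K) (hq : q ∈ rootSet K) (hpq : p + q ∈ rootSet K)
    (hp0 : p ≠ 0) (hq0 : q ≠ 0) (hne : p ≠ q) (hfpq : f p q = 0) : K = ⊤ := by
  have h11 : (1 : F) + 1 = 0 := by
    rcases hF (1 + 1) with h | h
    · exact h
    · exact absurd (by linear_combination h) (one_ne_zero (α := F))
  have dbl : ∀ z : V, z + z = 0 := fun z => by
    rw [← two_smul F z, show (2 : F) = 0 by rw [← one_add_one_eq_two, h11], zero_smul]
  have one_of : ∀ {r : F}, r ≠ 0 → r = 1 := fun h => (hF _).resolve_left h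
  have fsym : ∀ x y : V, f y x = f x y := fun x y => by
    rw [form_skew]
    rcases hF (f x y) with h | h <;> rw [h]
    · simp
    · linear_combination -h11
  have hzero : ∀ (x y : F), x + y = 0 → x = y := fun x y h => by
    rcases hF x with hx | hx <;> rcases hF y with hy | hy <;> subst hx <;> subst hy <;> simp_all
  -- out: pairs with the plane
  let Out : V → Prop := fun x => ¬ (f x p = 0 ∧ f x q = 0)
  have cls : ∀ x y : V, Out (x + y) ↔ ¬ (f x p = f y p ∧ f x q = f y q) := by
    intro x y
    refine not_congr ?_
    rw [form_add_left, form_add_left]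
    constructor
    · exact fun ⟨h1, h2⟩ => ⟨hzero _ _ h1, hzero _ _ h2⟩
    · rintro ⟨h1, h2⟩
      rw [h1, h2]
      constructor
      · linear_combination (f y p) * h11
      · linear_combination (f y q) * h11
  -- out elements absorb the plane
  have absorb : ∀ x : V, x ∈ rootSet K → Out x →
      x + p ∈ rootSet K ∧ x + q ∈ rootSet K ∧ x + (p + q) ∈ rootSet K := by
    intro x hx ho
    have hqp : f q p = 0 := by rw [fsym]; exact hfpq
    rcases hF (f x p) with h1 | h1 <;> rcases hF (f x q) with h2 | h2
    · exact absurd ⟨h1, h2⟩ ho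
    · have a2 := mem_add hx hq (by rw [h2]; exact one_ne_zero)
      have a3 := mem_add hx hpq (by rw [form_add_right, h1, h2]; simp)
      refine ⟨?_, a2, a3⟩
      have e := mem_add a3 hq (by
        rw [form_add_left, form_add_left, h2, hfpq, form_self]; simp)
      rwa [show x + (p + q) + q = x + p + (q + q) by abel, dbl, add_zero] at e
    · have a1 := mem_add hx hp (by rw [h1]; exact one_ne_zero)
      have a3 := mem_add hx hpq (by rw [form_add_right, h1, h2]; simp)
      refine ⟨a1, ?_, a3⟩
      have e := mem_add a3 hp (by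
        rw [form_add_left, form_add_left, h1, hqp, form_self]; simp)
      rwa [show x + (p + q) + p = x + q + (p + p) by abel, dbl, add_zero] at e
    · have a1 := mem_add hx hp (by rw [h1]; exact one_ne_zero)
      have a2 := mem_add hx hq (by rw [h2]; exact one_ne_zero)
      refine ⟨a1, a2, ?_⟩
      have e := mem_add a1 hq (by rw [form_add_left, h2, hfpq]; simp)
      rwa [add_assoc] at e
  -- sums of two out elements of different classes
  have sum_out : ∀ x y : V, x ∈ rootSet K → y ∈ rootSet K → Out x → Out y → Out (x + y) →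
      x + y ∈ rootSet K := by
    intro x y hx hy hox hoy ho
    by_cases hxy : f x y = 0
    · have ext : ∀ l : V, f l p = 0 → f l q = 0 → y + l ∈ rootSet K → f x l ≠ 0 →
          (∀ z : V, z ∈ rootSet K → Out z → z + l ∈ rootSet K) → x + y ∈ rootSet K := by
        intro l h1 h2 hl hxl habs
        have e := mem_add hx hl (by rwa [form_add_right, hxy, zero_add])
        have e2 := habs _ e (by
          intro hc
          refine ho ?_
          rw [form_add_left, form_add_left, form_add_left, form_add_left, h1, h2, add_zero,
            add_zero] at hc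
          rw [form_add_left, form_add_left]
          exact hc)
        rwa [show x + (y + l) + l = x + y + (l + l) by abel, dbl, add_zero] at e2
      by_cases hxp : f x p = 0
      · have hxq : f x q ≠ 0 := fun h => hox ⟨hxp, h⟩
        exact ext q (by rw [fsym]; exact hfpq) (form_self _) (absorb y hy hoy).2.1 hxq
          (fun z hz hoz => (absorb z hz hoz).2.1)
      · exact ext p (form_self _) hfpq (absorb y hy hoy).1 hxp
          (fun z hz hoz => (absorb z hz hoz).1)
    · exact mem_add hx hy hxy
  -- out elements of a class other than the given one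
  have other : ∀ x : V, Out x → ∃ z ∈ rootSet K, Out z ∧ Out (x + z) := by
    intro x hox
    set r : V := (f x q) • p + (f x p) • q with hr
    have hr0 : r ≠ 0 := by
      rcases hF (f x p) with h1 | h1 <;> rcases hF (f x q) with h2 | h2
      · exact absurd ⟨h1, h2⟩ hox
      · simp [hr, h1, h2, hp0]
      · simp [hr, h1, h2, hq0]
      · simp only [hr, h1, h2, one_smul]
        intro h
        exact hne (by
          calc p = p + (q + q) := by rw [dbl, add_zero]
            _ = q := by rw [← add_assoc, h, zero_add])
    obtain ⟨z, hz, hzr⟩ := exists_pair_ne hsp hr0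
    rw [hr, form_add_right, form_smul_right, form_smul_right] at hzr
    refine ⟨z, hz, fun h => hzr ?_, (cls _ _).2 fun h => hzr ?_⟩
    · rw [h.1, h.2]; ring
    · rw [← h.1, ← h.2]; linear_combination (f x p * f x q) * h11
  let R : V → Prop := fun w => (Out w → w ∈ rootSet K) ∧
    (¬ Out w → ∀ c : V, c ∈ rootSet K → Out c → c + w ∈ rootSet K)
  have shift : ∀ c w : V, ¬ Out w → (Out (c + w) ↔ Out c) := by
    intro c w hw
    have hw' : f w p = 0 ∧ f w q = 0 := by simpa [Out] using hw
    simp [Out, form_add_left, hw'.1, hw'.2]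
  have inmem : ∀ c w : V, c ∈ rootSet K → Out c → R w → Out (c + w) → c + w ∈ rootSet K := by
    intro c w hc hoc hw ho
    by_cases how : Out w
    · exact sum_out c w hc (hw.1 how) hoc how ho
    · exact hw.2 how c hc hoc
  have base : ∀ d : V, d ∈ rootSet K → R d := by
    intro d hd
    refine ⟨fun _ => hd, fun hod c hc hoc => ?_⟩
    by_cases hd0 : d = 0
    · rwa [hd0, add_zero]
    -- an out neighbour of `d`
    obtain ⟨g, hg, hgd, hog⟩ : ∃ g ∈ rootSet K, f g d ≠ 0 ∧ Out g := by
      have hod' : f d p = 0 ∧ f d q = 0 := by simpa [Out] using hod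
      rcases hlink d p hd hp hd0 hp0 with h | ⟨e, he, h1, h2⟩
      · exact absurd hod'.1 h
      · exact ⟨e, he, f_ne_symm h1, fun h => h2 h.1⟩
    by_cases hcd : f c d = 0
    · -- move to a neighbour of another class
      obtain ⟨g, hg, hgd, hog, hcg⟩ :
          ∃ g ∈ rootSet K, f g d ≠ 0 ∧ Out g ∧ Out (c + g) := by
        by_cases hcg : Out (c + g)
        · exact ⟨g, hg, hgd, hog, hcg⟩
        · obtain ⟨z, hz, hoz, hcz⟩ := other c hoc
          by_cases hzd : f z d = 0
          · have hog' : Out (z + g) := by
              rw [cls]; intro h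
              have hcg' : f c p = f g p ∧ f c q = f g q := by
                by_contra hh; exact hcg ((cls c g).2 hh)
              exact ((cls c z).1 hcz) ⟨hcg'.1.trans h.1.symm, hcg'.2.trans h.2.symm⟩
            have h3 : Out (c + (z + g)) := by
              rw [show c + (z + g) = (c + g) + z by abel]
              rw [add_comm, shift z (c + g) hcg]
              exact hoz
            exact ⟨z + g, sum_out z g hz hg hoz hog hog', by
              rwa [form_add_left, hzd, zero_add], hog', h3⟩
          · exact ⟨z, hz, hzd, hoz, hcz⟩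
      have e1 := mem_add hg hd hgd
      have ho1 : Out (g + d) := (shift g d hod).2 hog
      have e2 := sum_out c g hc hg hoc hog hcg
      have e := sum_out (c + g) (g + d) e2 e1 hcg ho1 (by
        rw [show c + g + (g + d) = c + d + (g + g) by abel, dbl, add_zero]
        exact (shift c d hod).2 hoc)
      rwa [show c + g + (g + d) = c + d + (g + g) by abel, dbl, add_zero] at e
    · exact mem_add hc hd hcd
  have radd : ∀ x y : V, R x → R y → R (x + y) := by
    intro x y hx hy
    by_cases hox : Out x
    · refine ⟨inmem x y (hx.1 hox) hox hy, fun ho c hc hoc => ?_⟩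
      by_cases hoy : Out y
      · by_cases hcx : Out (c + x)
        · have e := inmem c x hc hoc hx hcx
          rw [← add_assoc]
          exact inmem _ y e hcx hy (by rw [add_assoc]; exact (shift c _ ho).2 hoc)
        · obtain ⟨z, hz, hoz, hcz⟩ := other c hoc
          have hzx : Out (z + x) := by
            rw [show z + x = (c + z) + (c + x) by
              rw [show c + z + (c + x) = z + x + (c + c) by abel, dbl, add_zero]]
            exact (shift _ _ hcx).2 hcz
          have e1 := inmem z x hz hoz hx hzx
          have hzxy : Out (z + x + y) := by rw [add_assoc]; exact (shift z _ ho).2 hoz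
          have e2 := inmem _ y e1 hzx hy hzxy
          have e3 := sum_out c z hc hz hoc hoz hcz
          have hid : c + z + (z + x + y) = c + (x + y) := by
            rw [show c + z + (z + x + y) = c + (x + y) + (z + z) by abel, dbl, add_zero]
          have e4 := sum_out _ _ e3 e2 hcz hzxy (by rw [hid]; exact (shift c _ ho).2 hoc)
          rwa [hid] at e4
      · exact absurd ((shift x y hoy).2 hox) ho
    · by_cases hoy : Out y
      · refine ⟨fun _ => ?_, fun ho => ?_⟩
        · rw [add_comm]; exact inmem y x (hy.1 hoy) hoy hx ((shift y x hox).2 hoy)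
        · exact absurd (by rw [add_comm]; exact (shift y x hox).2 hoy) ho
      · refine ⟨fun ho => absurd ((shift x y hoy).1 ho) hox, fun ho c hc hoc => ?_⟩
        rw [← add_assoc]
        exact hy.2 hoy _ (hx.2 hox c hc hoc) ((shift c x hox).2 hoc)
  have hR : ∀ w : V, R w := by
    intro w
    have hmem : w ∈ Submodule.span F (rootSet K) := hsp ▸ Submodule.mem_top
    induction hmem using Submodule.span_induction with
    | mem x hx => exact base x hx
    | zero => exact base 0 mem_zero
    | add x y _ _ hx hy => exact radd x y hx hy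
    | smul r x _ hx =>
      rcases hF r with h | h <;> subst h
      · rw [zero_smul]; exact base 0 mem_zero
      · rwa [one_smul]
  refine eq_top_of_tv K fun w c => ?_
  have hw : w ∈ rootSet K := by
    by_cases how : Out w
    · exact (hR w).1 how
    · by_cases hw0 : w = 0
      · rw [hw0]; exact mem_zero
      obtain ⟨z, -, hzw, hzp⟩ := exists_common nondeg_top (Submodule.mem_top (x := w)) hw0
        (Submodule.mem_top (x := p)) hp0
      have hoz : Out z := fun h => f_ne_symm hzp h.1
      have e1 := (hR z).1 hoz
      have e2 := (hR (z + w)).1 ((shift z w how).2 hoz)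
      have e3 := mem_add e1 e2 (by
        rw [form_add_right, form_self, zero_add]; exact f_ne_symm hzw)
      rwa [← add_assoc, dbl, zero_add] at e3
  exact hw c

end CfsgLib.SpGen3
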