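import Cfsg.Agent.SpGen3.Model
import Cfsg.Agent.SpGen3.Closure

/-!
Two scalars: a transvection as a cube, and a totally isotropic plane of centres.
-/

set_option autoImplicit false

namespace CfsgLib.SpGen3

open Matrix CfsgLib.SpGeom CfsgLib.Chev.SpSlim

universe u

variable {F : Type u} [Field F] {n : ℕ}

local notation "V" => (Fin n ⊕ Fin n → F)
local notation "Sp" => Matrix.symplecticGroup (Fin n) F
local notation "f" => Cfsg.sympForm n F

/-- Identity outside the columns `q` and `r`. -/
def colMat (p q r : Fin n) (a b c a' b' c' : F) : Matrix (Fin n) (Fin n) F :=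
  Matrix.of fun i j =>
    if j = q then (if i = p then a else if i = q then b else if i = r then c else 0)
    else if j = r then (if i = p then a' else if i = q then b' else if i = r then c' else 0)
    else if i = j then 1 else 0

theorem colMat_mulVec {p q r : Fin n} (hpq : p ≠ q) (hpr : p ≠ r) (hqr : q ≠ r)
    (a b c a' b' c' : F) (v : Fin n → F) (i : Fin n) :
    (colMat p q r a b c a' b' c' *ᵥ v) i =
      if i = p then v p + a * v q + a' * v r
      else if i = q then b * v q + b' * v r
      else if i = r then c * v q + c' * v r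
      else v i := by
  have hsplit : ∀ j, colMat p q r a b c a' b' c' i j * v j =
      (if j = q then (if i = p then a else if i = q then b else if i = r then c else 0) * v j else 0) +
      (if j = r then (if i = p then a' else if i = q then b' else if i = r then c' else 0) * v j
        else 0) +
      (if j = i then (if i = q then 0 else if i = r then 0 else 1) * v j else 0) := by
    intro j
    simp only [colMat, Matrix.of_apply]
    by_cases hjq : j = q
    · subst hjq
      by_cases hi : j = i
      · subst hi; simp [hqr]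
      · simp [hi, hqr]
    · by_cases hjr : j = r
      · subst hjr
        by_cases hi : j = i
        · subst hi; simp [Ne.symm hqr]
        · simp [hi, hjq]
      · by_cases hi : j = i
        · subst hi; simp [hjq, hjr]
        · simp [hjq, hjr, hi, Ne.symm hi]
  rw [Matrix.mulVec, dotProduct]
  simp only [hsplit, Finset.sum_add_distrib, Finset.sum_ite_eq', Finset.mem_univ, if_true]
  by_cases h1 : i = p
  · subst h1; simp [hpq, hpr]; ring
  by_cases h2 : i = q
  · subst h2; simp [h1, hqr]
  by_cases h3 : i = r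
  · subst h3; simp [h1, h2]
  simp [h1, h2, h3]

theorem colMat_transpose_mulVec {p q r : Fin n} (hpq : p ≠ q) (hpr : p ≠ r) (hqr : q ≠ r)
    (a b c a' b' c' : F) (v : Fin n → F) (i : Fin n) :
    ((colMat p q r a b c a' b' c')ᵀ *ᵥ v) i =
      if i = q then a * v p + b * v q + c * v r
      else if i = r then a' * v p + b' * v q + c' * v r
      else v i := by
  rw [Matrix.mulVec, dotProduct]
  simp only [Matrix.transpose_apply, colMat, Matrix.of_apply]
  by_cases h2 : i = q
  · subst h2
    simp only [if_true]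
    rw [← Finset.sum_subset (Finset.subset_univ ({p, i, r} : Finset (Fin n)))]
    · rw [Finset.sum_insert (by simp [hpq, hpr]), Finset.sum_insert (by simp [hqr]),
        Finset.sum_singleton]
      simp [hpq.symm, hpr.symm, hqr.symm]; ring
    · intro x _ hx; simp at hx; simp [hx.1, hx.2.1, hx.2.2]
  by_cases h3 : i = r
  · subst h3
    simp only [if_neg h2, if_true]
    rw [← Finset.sum_subset (Finset.subset_univ ({p, q, i} : Finset (Fin n)))]
    · rw [Finset.sum_insert (by simp [hpq, hpr]), Finset.sum_insert (by simp [hqr]),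
        Finset.sum_singleton]
      simp [hpq.symm, hpr.symm, hqr.symm]; ring
    · intro x _ hx; simp at hx; simp [hx.1, hx.2.1, hx.2.2]
  simp [h2, h3]

theorem bidiag_mulVec (v : Fin n → F) (i : Fin n) :
    (bidiag n F *ᵥ v) i = v i + if h : (i : ℕ) + 1 < n then v ⟨(i : ℕ) + 1, h⟩ else 0 := by
  rw [Matrix.mulVec, dotProduct]
  by_cases h : (i : ℕ) + 1 < n
  · rw [dif_pos h, Finset.sum_eq_add i ⟨(i : ℕ) + 1, h⟩ (by simp [Fin.ext_iff])]
    · simp [bidiag]
    · intro j _ hj
      have h1 : (j : ℕ) ≠ i := fun e => hj.1 (Fin.ext e)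
      have h2 : (j : ℕ) ≠ (i : ℕ) + 1 := fun e => hj.2 (Fin.ext e)
      simp [bidiag, h1, h2]
    · simp
    · simp
  · rw [dif_neg h, Finset.sum_eq_single i]
    · simp [bidiag]
    · intro j _ hj
      have h1 : (j : ℕ) ≠ i := fun e => hj (Fin.ext e)
      have := j.isLt
      have h2 : (j : ℕ) ≠ (i : ℕ) + 1 := by omega
      simp [bidiag, h1, h2]
    · simp

theorem exists_two (hF : ∀ x : F, x = 0 ∨ x = 1) (hn : 3 ≤ n) :
    ∃ M : Sp, ∃ p q r : Fin n, (p : ℕ) + 3 = n ∧ (q : ℕ) + 2 = n ∧ (r : ℕ) + 1 = n ∧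
      ((regUnip r 1)⁻¹ * (M * regUnip r 1 * M⁻¹)) ^ 3 = tv (eV p) 1 := by
  obtain ⟨p, hp⟩ : ∃ p : Fin n, (p : ℕ) + 3 = n := ⟨⟨n - 3, by omega⟩, by simp; omega⟩
  obtain ⟨q, hq⟩ : ∃ q : Fin n, (q : ℕ) + 2 = n := ⟨⟨n - 2, by omega⟩, by simp; omega⟩
  obtain ⟨r, hr⟩ : ∃ r : Fin n, (r : ℕ) + 1 = n := ⟨⟨n - 1, by omega⟩, by simp; omega⟩
  have hpq : p ≠ q := fun e => by rw [e] at hp; omega
  have hpr : p ≠ r := fun e => by rw [e] at hp; omega
  have hqr : q ≠ r := fun e => by rw [e] at hq; omega
  have h11 : (1 : F) + 1 = 0 := by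
    rcases hF (1 + 1) with h | h
    · exact h
    · exact absurd (by linear_combination h) (one_ne_zero (α := F))
  have dblF : ∀ x : F, x + x = 0 := fun x => by linear_combination x * h11
  have two : (2 : F) = 0 := by linear_combination h11
  have three : (3 : F) = 1 := by linear_combination h11
  have n4 : (4 : F) = 0 := by linear_combination (2 : F) * h11
  have n5 : (5 : F) = 1 := by linear_combination (2 : F) * h11
  have n6 : (6 : F) = 0 := by linear_combination (3 : F) * h11
  have n7 : (7 : F) = 1 := by linear_combination (3 : F) * h11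
  have n8 : (8 : F) = 0 := by linear_combination (4 : F) * h11
  have n9 : (9 : F) = 1 := by linear_combination (4 : F) * h11
  have n10 : (10 : F) = 0 := by linear_combination (5 : F) * h11
  have n11 : (11 : F) = 1 := by linear_combination (5 : F) * h11
  have n12 : (12 : F) = 0 := by linear_combination (6 : F) * h11
  have n13 : (13 : F) = 1 := by linear_combination (6 : F) * h11
  have n14 : (14 : F) = 0 := by linear_combination (7 : F) * h11
  have n16 : (16 : F) = 0 := by linear_combination (8 : F) * h11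
  set mM := colMat p q r (0 : F) 0 1 1 1 1 with hmM
  set mI := colMat p q r (1 : F) 1 1 0 1 0 with hmI
  set zM := colMat p q r (1 : F) 0 1 0 1 1 with hzM
  set zI := colMat p q r (1 : F) 1 1 1 1 0 with hzI
  have hmv : mM * mI = 1 ∧ zM * zI = 1 := by
    constructor <;> refine Matrix.ext_iff_mulVec.2 fun v => funext fun i => ?_ <;>
      simp only [← Matrix.mulVec_mulVec, Matrix.one_mulVec, hmM, hmI, hzM, hzI,
        colMat_mulVec hpq hpr hqr] <;>
      split_ifs <;> subst_vars <;>
      simp_all [add_assoc, add_comm, add_left_comm, dblF] <;> ring_nf <;> simp [two, three, n4, n5, n6, n7, n8, n9, n10, n11, n12, n13, n14, n16]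
  have hm : mMᵀ * mIᵀ = 1 := by
    rw [← Matrix.transpose_mul, mul_eq_one_comm.1 hmv.1, Matrix.transpose_one]
  have hz : zMᵀ * zIᵀ = 1 := by
    rw [← Matrix.transpose_mul, mul_eq_one_comm.1 hmv.2, Matrix.transpose_one]
  set M : Sp := levi mM mIᵀ hm with hM
  set T : Sp := tv (eV r) 1 with hT
  set w : V := eV p + eV q + eV r with hw
  set D : Sp := T * levi zM zIᵀ hz * tv w 1 with hD
  have hMr : ap M (eV r : V) = w := by
    rw [hM, ap_levi, hw]
    funext i
    rcases i with i | i
    · simp only [Sum.elim_inl, hmM, colMat_mulVec hpq hpr hqr]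
      split_ifs <;> subst_vars <;>
        simp [eV, Pi.single_apply, hpq, hpr, hqr, hpq.symm, hpr.symm, hqr.symm, *]
    · have e : (eV r : V) ∘ Sum.inr = 0 := funext fun l => by simp [eV]
      simp only [Sum.elim_inr, e, Matrix.mulVec_zero, Pi.zero_apply]
      simp [eV]
  have hYm : bidiag n F * (zM * mM) = mM * bidiag n F := by
    refine Matrix.ext_iff_mulVec.2 fun v => funext fun i => ?_
    simp only [← Matrix.mulVec_mulVec, bidiag_mulVec, hmM, hzM, colMat_mulVec hpq hpr hqr]
    have hq1 : (⟨(q : ℕ) + 1, by omega⟩ : Fin n) = r := Fin.ext (by simp; omega)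
    have hp1 : (⟨(p : ℕ) + 1, by omega⟩ : Fin n) = q := Fin.ext (by simp; omega)
    have hqn : (q : ℕ) + 1 < n := by omega
    have hpn : (p : ℕ) + 1 < n := by omega
    have hrn : ¬ ((r : ℕ) + 1 < n) := by omega
    rw [dif_pos hqn, dif_pos hpn, dif_neg hrn, hq1, hp1]
    by_cases hir : i = r
    · rw [hir, dif_neg hrn, dif_neg hrn]
      simp only [if_neg hpr.symm, if_neg hqr.symm, if_pos, if_neg hqr, if_neg hpq.symm]
      ring_nf <;> simp [two, three, n4, n5, n6, n7, n8, n9, n10, n11, n12, n13, n14, n16]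
    have hi1 : (i : ℕ) + 1 < n := by
      have : (i : ℕ) ≠ r := fun e => hir (Fin.ext e)
      have := i.isLt; omega
    rw [dif_pos hi1, dif_pos hi1]
    by_cases hiq : i = q
    · subst hiq
      simp only [hq1, if_pos, if_neg hpq.symm, if_neg hpr.symm, if_neg hqr.symm, if_neg hqr]
      ring_nf <;> simp [two, three, n4, n5, n6, n7, n8, n9, n10, n11, n12, n13, n14, n16]
    by_cases hip : i = p
    · subst hip
      simp only [hp1, if_pos, if_neg hpq.symm, if_neg hpr.symm, if_neg hqr.symm, if_neg hqr]
      ring_nf <;> simp [two, three, n4, n5, n6, n7, n8, n9, n10, n11, n12, n13, n14, n16]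
    have hbq : (⟨(i : ℕ) + 1, hi1⟩ : Fin n) ≠ q := fun e => hip (Fin.ext (by
      rw [Fin.ext_iff] at e; simp at e; omega))
    have hbr : (⟨(i : ℕ) + 1, hi1⟩ : Fin n) ≠ r := fun e => hiq (Fin.ext (by
      rw [Fin.ext_iff] at e; simp at e; omega))
    by_cases hbp : (⟨(i : ℕ) + 1, hi1⟩ : Fin n) = p
    · simp only [hbp, if_pos, if_neg hip, if_neg hiq, if_neg hir, if_neg hpq.symm, if_neg hpr.symm,
        if_neg hqr.symm, if_neg hqr]
      ring_nf <;> simp [two, three, n4, n5, n6, n7, n8, n9, n10, n11, n12, n13, n14, n16]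
    · simp [hbp, hbq, hbr, hip, hiq, hir]
  have hTT : T * T = 1 := by rw [hT, tv_mul, h11, tv_zero]
  have hrel : regUnip r 1 * D * M = M * regUnip r 1 := by
    have hc : tv w 1 * M = M * T := by
      rw [hT, ← hMr, ← tv_conj', inv_mul_cancel_right]
    rw [hD, regUnip, ← hT]
    calc levi (bidiag n F) (bidiagDual n F) bidiag_dual * T * (T * levi zM zIᵀ hz * tv w 1) * M
        = levi (bidiag n F) (bidiagDual n F) bidiag_dual * (T * T) * levi zM zIᵀ hz *
            (tv w 1 * M) := by simp only [mul_assoc]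
      _ = levi (bidiag n F) (bidiagDual n F) bidiag_dual * levi zM zIᵀ hz * M * T := by
          rw [hTT, mul_one, hc, ← mul_assoc]
      _ = M * (levi (bidiag n F) (bidiagDual n F) bidiag_dual * T) := by
          rw [← mul_assoc, hM, levi_mul, levi_mul, levi_mul]
          congr 1
          exact levi_congr _ _ (by rw [Matrix.mul_assoc]; exact hYm)
  have hDe : (regUnip r 1)⁻¹ * (M * regUnip r 1 * M⁻¹) = D := by
    rw [← hrel]; group
  refine ⟨M, p, q, r, hp, hq, hr, ?_⟩
  rw [hDe]
  have hwb : ∀ x : V, bo w x = x (.inr p) + x (.inr q) + x (.inr r) := by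
    intro x
    rw [bo_skew, hw, bo_add_right, bo_add_right, bo_eV_right, bo_eV_right, bo_eV_right]
    ring
  have hrb : ∀ x : V, bo (eV r) x = x (.inr r) := by
    intro x; rw [bo_skew, bo_eV_right, neg_neg]
  have hl : ∀ (x : V) (i : Fin n), ap D x (.inl i) =
      if i = p then x (.inl p) + x (.inl q)
      else if i = q then x (.inl r) + (x (.inr p) + x (.inr q) + x (.inr r))
      else if i = r then x (.inl q) + x (.inl r) + x (.inr p) + x (.inr q)
      else x (.inl i) := by
    intro x i
    rw [hD, ap_mul, ap_mul, ap_tv, ap_levi, ap_tv, hrb, hwb]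
    simp only [Pi.add_apply, Pi.smul_apply, Sum.elim_inl, Sum.elim_inr, Function.comp_def,
      hzM, hzI, hw, colMat_mulVec hpq hpr hqr, colMat_transpose_mulVec hpq hpr hqr]
    split_ifs <;> subst_vars <;>
      simp_all [eV, Pi.single_apply] <;> ring_nf <;> simp [two, three, n4, n5, n6, n7, n8, n9, n10, n11, n12, n13, n14, n16]
  have hrr : ∀ (x : V) (i : Fin n), ap D x (.inr i) =
      if i = q then x (.inr p) + x (.inr q) + x (.inr r)
      else if i = r then x (.inr p) + x (.inr q)
      else x (.inr i) := by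
    intro x i
    rw [hD, ap_mul, ap_mul, ap_tv, ap_levi, ap_tv, hrb, hwb]
    simp only [Pi.add_apply, Pi.smul_apply, Sum.elim_inl, Sum.elim_inr, Function.comp_def,
      hzM, hzI, hw, colMat_mulVec hpq hpr hqr, colMat_transpose_mulVec hpq hpr hqr]
    split_ifs <;> subst_vars <;> simp_all [eV]
  refine ext_ap fun x => ?_
  rw [pow_succ, pow_succ, pow_one, ap_mul, ap_mul, ap_tv]
  funext i
  have hpb : bo (eV p) x = x (.inr p) := by rw [bo_skew, bo_eV_right, neg_neg]
  rw [hpb]
  rcases i with i | i
  · simp only [Pi.add_apply, Pi.smul_apply, hl, hrr]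
    split_ifs <;> subst_vars <;>
      simp_all [eV, Pi.single_apply] <;> ring_nf <;> simp [two, three, n4, n5, n6, n7, n8, n9, n10, n11, n12, n13, n14, n16]
  · simp only [Pi.add_apply, Pi.smul_apply, hl, hrr]
    split_ifs <;> subst_vars <;>
      simp_all [eV] <;> ring_nf <;> simp [two, three, n4, n5, n6, n7, n8, n9, n10, n11, n12, n13, n14, n16]

end CfsgLib.SpGen3
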