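import Cfsg.Agent.SpGen3.Plane
import Cfsg.Agent.SpGen3.Two

/-!
`Sp` is generated by three conjugate regular unipotent elements.
-/

set_option autoImplicit false

namespace CfsgLib.SpGen3

open Matrix CfsgLib.SpGeom CfsgLib.Chev.SpSlim

universe u

variable {F : Type u} [Field F] {n : ℕ}

local notation "V" => (Fin n ⊕ Fin n → F)
local notation "Sp" => Matrix.symplecticGroup (Fin n) F
local notation "f" => Cfsg.sympForm n F

theorem form_fV_left (k : Fin n) (y : V) : f (fV k) y = y (.inl k) := by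
  rw [form_skew, fV, form_single_inr_right, neg_neg]

theorem form_eV_left (k : Fin n) (y : V) : f (eV k) y = -y (.inr k) := by
  rw [form_skew, eV, form_single_inl_right]

theorem exists_cyclic_value (hn : 2 ≤ n) {z l : Fin n} (hz : (z : ℕ) = 0) (hl : (l : ℕ) = n - 1)
    (κ : F) (hκ : 3 ≤ n ∨ (2 : F) ≠ 0 ∨ κ ≠ 1) :
    ∃ x : V, x (.inr z) ≠ 0 ∧ f x (ap (regUnip l 1) x) = κ := by
  have hzl : z ≠ l := fun e => by rw [e] at hz; omega
  have main : ∀ μ ν : F, f (μ • fV z + fV l + ν • eV l) (ap (regUnip l 1) (μ • fV z + fV l + ν • eV l))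
      = μ * (1 + ν) * bidiag n F z l + 1 - ν * μ * bidiagDual n F l z := by
    intro μ ν
    have e1 : bidiag n F l l = 1 := by simp [bidiag]
    have e2 : bidiagDual n F l l = 1 := by simp [bidiagDual]
    rw [form_add_left, form_add_left, form_smul_left, form_smul_left, form_fV_left, form_fV_left,
      form_eV_left, ap_add, ap_add, ap_smul, ap_smul, regUnip_fV, regUnip_fV, regUnip_eV]
    simp [hzl, e1, e2]
    ring
  have hx : ∀ μ ν : F, μ ≠ 0 → (μ • fV z + fV l + ν • eV l : V) (.inr z) ≠ 0 := fun μ ν h => by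
    simpa [fV, eV, hzl] using h
  by_cases h3 : 3 ≤ n
  · have h1 : bidiag n F z l = 0 := by
      have : ¬((l : ℕ) = z ∨ (l : ℕ) = (z : ℕ) + 1) := by omega
      simp [bidiag, this]
    set e := bidiagDual n F l z with he
    have he0 : e ≠ 0 := by
      have : z ≤ l := by rw [Fin.le_def]; omega
      simp [he, bidiagDual, this]
    refine ⟨_, hx 1 ((1 - κ) / e) one_ne_zero, ?_⟩
    rw [main, h1, mul_one, div_mul_cancel₀ _ he0]; ring
  · have h1 : bidiag n F z l = 1 := by
      have : (l : ℕ) = (z : ℕ) + 1 := by omega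
      simp [bidiag, this]
    have h2 : bidiagDual n F l z = -1 := by
      have : (l : ℕ) = 1 := by omega
      have h' : z ≤ l := by rw [Fin.le_def]; omega
      simp [bidiagDual, hz, this, h']
    by_cases h20 : (2 : F) = 0
    · have hk : κ - 1 ≠ 0 := sub_ne_zero.2 ((hκ.resolve_left h3).resolve_left (not_not_intro h20))
      exact ⟨_, hx (κ - 1) 0 hk, by rw [main, h1, h2]; ring⟩
    · refine ⟨_, hx 1 ((κ - 2) / 2) one_ne_zero, ?_⟩
      rw [main, h1, h2]; field_simp; ring

/-- The conclusion, with the conjugating elements existentially quantified. -/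
def Goal (n : ℕ) (F : Type u) [Field F] (u : Matrix.symplecticGroup (Fin n) F) : Prop :=
  ∃ g h : Matrix.symplecticGroup (Fin n) F,
    Subgroup.closure ({u, g * u * g⁻¹, h * u * h⁻¹} : Set (Matrix.symplecticGroup (Fin n) F)) = ⊤

variable [Fintype F]

theorem exists_other_scalar (hq : 3 ≤ Fintype.card F) (r : F) : ∃ s : F, s ≠ 0 ∧ s ≠ r := by
  classical
  obtain ⟨s, hs⟩ : ((Finset.univ : Finset F) \ {0, r}).Nonempty := by
    rw [← Finset.card_pos]
    have := Finset.le_card_sdiff ({0, r} : Finset F) Finset.univ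
    have := Finset.card_le_two (a := (0 : F)) (b := r)
    rw [Finset.card_univ] at *
    omega
  simp at hs
  exact ⟨s, hs.1, hs.2⟩

theorem eq_top_of_orbit (hq : 3 ≤ Fintype.card F) {K : Subgroup Sp} {v : Sp} (hv : v ∈ K) {a : V}
    (ha : a ∈ rootSet K) (hva : f a (ap v a) ≠ 0)
    (hspan : Submodule.span F (Set.range fun k : ℕ => ap (v ^ k) a) = ⊤) : K = ⊤ :=
  eq_top_of_large (exists_other_scalar hq) (span_rootSet hv ha hspan)
    (fun _ _ hx hy hx0 hy0 => linked_all hv ha hva hspan hx hy hx0 hy0)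

theorem goal_three (hn : 2 ≤ n) (hq : Fintype.card F = 3) {z l o : Fin n} (hz : (z : ℕ) = 0)
    (hl : (l : ℕ) = n - 1) (ho : (o : ℕ) = 1) : Goal n F (regUnip l 1) := by
  set u : Sp := regUnip l 1 with hu
  have huz : ap u (eV z : V) = eV z := by
    rw [hu, regUnip_eV]
    funext i
    rcases i with i | i
    · by_cases hiz : i = z
      · subst hiz; simp [bidiag, eV]
      · have : ¬((z : ℕ) = i ∨ (z : ℕ) = (i : ℕ) + 1) := by
          have : (i : ℕ) ≠ z := fun e => hiz (Fin.ext e)
          omega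
        simp [bidiag, eV, this, hiz]
    · simp [eV]
  have huo : ap u (eV o : V) = eV o + eV z := by
    rw [hu, regUnip_eV]
    funext i
    rcases i with i | i
    · by_cases hiz : i = z
      · have : i ≠ o := fun e => by rw [← e, hiz] at ho; omega
        have h' : (o : ℕ) = (i : ℕ) + 1 := by rw [hiz]; omega
        have h'' : Fin n := i
        simp [bidiag, eV, h', hiz ▸ this]
        simp [hiz, Pi.single_apply]
        exact fun h => (hiz ▸ this) h
      · by_cases hio : i = o
        · subst hio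
          have : i ≠ z := hiz
          simp [bidiag, eV, this]
        · have : ¬((o : ℕ) = i ∨ (o : ℕ) = (i : ℕ) + 1) := by
            have : (i : ℕ) ≠ o := fun e => hio (Fin.ext e)
            have : (i : ℕ) ≠ z := fun e => hiz (Fin.ext e)
            omega
          simp [bidiag, eV, this, hiz, hio]
    · simp [eV]
  have hbo : bo (eV z : V) (eV o) = 0 := by rw [bo_eV_right]; simp [eV]
  have hboo : bo (eV z : V) (eV o + eV z) = 0 := by rw [bo_add_right, hbo, bo_self, add_zero]
  set E : Sp := Eich (eV z) (eV o) with hE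
  have hcomm : u * E * u⁻¹ * E⁻¹ = tv (eV z) (2 : F) := by
    rw [hE, Eich_conj, huz, huo, Eich_inv hbo,
      Eich_add hboo (by rw [bo_neg_right, hbo, neg_zero])]
    have : bo (eV o + eV z : V) (-eV o) = 0 := by
      rw [bo_neg_right, bo_add_left, bo_self, hbo, add_zero, neg_zero]
    rw [this, tv_zero, mul_one, show (eV o + eV z + -eV o : V) = eV z by abel]
    refine ext_ap fun x => ?_
    rw [ap_Eich (bo_self _), ap_tv]
    module
  set a : V := eV z with ha
  set b : V := -fV z with hb
  have hab : f a b = 1 := by rw [ha, hb, form_eV_left]; simp [fV]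
  have h20 : (2 : F) ≠ 0 := by
    intro h
    have : CharP F 2 := CharTwo.of_one_ne_zero_of_two_eq_zero one_ne_zero h
    obtain ⟨k, hk⟩ := FiniteField.card F 2
    rw [hq] at hk
    have := Nat.Prime.dvd_of_dvd_pow Nat.prime_two (n := (k : ℕ)) (m := 2)
    rcases Nat.eq_zero_or_pos (k : ℕ) with h0 | h0
    · rw [h0] at hk; omega
    · have : 2 ∣ 3 := by rw [hk.2]; exact dvd_pow_self 2 (by omega)
      omega
  obtain ⟨x, hx0, hxκ⟩ := exists_cyclic_value hn hz hl (1 : F) (Or.inr (Or.inl h20))
  have hsp := span_pow (A := u) (by omega) (regUnip_shift (by omega) hl one_ne_zero)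
    (x := x) (by rwa [show (⟨0, by omega⟩ : Fin n) = z from Fin.ext hz.symm])
  obtain ⟨g, hg1, hg2⟩ := exists_conj_pair hsp hxκ one_ne_zero hab
  refine ⟨g, E, ?_⟩
  set K := Subgroup.closure ({u, g * u * g⁻¹, E * u * E⁻¹} : Set Sp) with hK
  have huK : u ∈ K := Subgroup.subset_closure (by simp)
  have hgK : g * u * g⁻¹ ∈ K := Subgroup.subset_closure (by simp)
  have hEK : E * u * E⁻¹ ∈ K := Subgroup.subset_closure (by simp)
  have h2K : tv a (2 : F) ∈ K := by
    rw [← hcomm]
    have e : u * E * u⁻¹ * E⁻¹ = u * (E * u * E⁻¹)⁻¹ := by group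
    rw [e]
    exact mul_mem huK (inv_mem hEK)
  have haS : a ∈ rootSet K := by
    have hp : (Nat.card F).Prime := by rw [Nat.card_eq_fintype_card, hq]; norm_num
    have : Fact (Nat.card F).Prime := ⟨hp⟩
    have h21 : (2 : F) ∈ paramAt K a 1 := by show tv a ((2 : F) * 1) ∈ K; rwa [mul_one]
    rcases (paramAt K a 1).eq_bot_or_eq_top_of_prime_card with h | h
    · rw [h, AddSubgroup.mem_bot] at h21; exact absurd h21 h20
    · intro r
      have : r ∈ paramAt K a 1 := h ▸ AddSubgroup.mem_top r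
      have e : tv a (r * 1) ∈ K := this
      rwa [mul_one] at e
  exact eq_top_of_orbit (by omega) hgK haS (by rw [hg1, one_smul, hab]; exact one_ne_zero) hg2

theorem goal_large (hn : 2 ≤ n) (hq : 4 ≤ Fintype.card F) {z l : Fin n} (hz : (z : ℕ) = 0)
    (hl : (l : ℕ) = n - 1) : Goal n F (regUnip l 1) := by
  classical
  set u : Sp := regUnip l 1 with hu
  obtain ⟨g₀, hg₀⟩ := IsCyclic.exists_generator (α := Fˣ)
  set γ : F := (g₀ : F) with hγ
  have hγ0 : γ ≠ 0 := g₀.ne_zero
  have hgen : orderOf γ = Fintype.card F - 1 := by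
    rw [hγ, orderOf_units, orderOf_eq_card_of_forall_mem_zpowers hg₀, Nat.card_eq_fintype_card,
      Fintype.card_units]
  have hγ1 : γ ≠ 1 := fun h => by rw [h, orderOf_one] at hgen; omega
  set a : V := ap u (eV l) with ha
  set b : V := -fV l with hb
  have hab : f a b = 1 := by
    rw [hb, form_skew, ← neg_one_smul F (fV l : V), form_smul_left, form_fV_left, ha, hu,
      regUnip_eV]
    simp [bidiag]
  have hub : ap u b = b - a := by
    rw [hb, ap_neg, hu, regUnip_fV, ha, hu, regUnip_eV]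
    funext i
    rcases i with i | i
    · simp [fV]
    · by_cases hil : i = l
      · subst hil; simp [fV, bidiagDual]
      · have : ¬ (l ≤ i) := by
          rw [Fin.le_def]
          have := i.isLt
          have : (i : ℕ) ≠ l := fun e => hil (Fin.ext e)
          omega
        simp [fV, bidiagDual, this, hil]
  -- choices
  obtain ⟨κ, t, hκ, ht, hcase⟩ : ∃ κ t : F, κ ≠ 0 ∧ t ≠ 0 ∧
      ((Fintype.card F ≠ 9 ∧ κ = γ ∧ t = γ⁻¹) ∨ (Fintype.card F = 9 ∧ κ = 1 ∧ t = γ)) := by
    by_cases h9 : Fintype.card F = 9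
    · exact ⟨1, γ, one_ne_zero, hγ0, Or.inr ⟨h9, rfl, rfl⟩⟩
    · exact ⟨γ, γ⁻¹, hγ0, inv_ne_zero hγ0, Or.inl ⟨h9, rfl, rfl⟩⟩
  have hval : 3 ≤ n ∨ (2 : F) ≠ 0 ∨ κ ≠ 1 := by
    rcases hcase with ⟨-, rfl, -⟩ | ⟨h9, -, -⟩
    · exact Or.inr (Or.inr hγ1)
    · refine Or.inr (Or.inl fun h => ?_)
      have e : ((9 : ℕ) : F) = 0 := h9 ▸ FiniteField.cast_card_eq_zero F
      norm_num at e
      exact one_ne_zero (α := F) (by linear_combination e - 4 * h)
  obtain ⟨x, hx0, hxκ⟩ := exists_cyclic_value hn hz hl κ hval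
  have hsp := span_pow (A := u) (by omega) (regUnip_shift (by omega) hl one_ne_zero)
    (x := x) (by rwa [show (⟨0, by omega⟩ : Fin n) = z from Fin.ext hz.symm])
  obtain ⟨g, hg1, hg2⟩ := exists_conj_pair hsp hxκ hκ hab
  refine ⟨g, torus t ht, ?_⟩
  set h : Sp := torus t ht with hh
  set K := Subgroup.closure ({u, g * u * g⁻¹, h * u * h⁻¹} : Set Sp) with hK
  have huK : u ∈ K := Subgroup.subset_closure (by simp)
  have hgK : g * u * g⁻¹ ∈ K := Subgroup.subset_closure (by simp)
  have hhK : h * u * h⁻¹ ∈ K := Subgroup.subset_closure (by simp)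
  set c : F := t ^ 2 - 1 with hc
  have hP : tv a c ∈ K := by
    set L : Sp := levi (bidiag n F) (bidiagDual n F) bidiag_dual with hL
    set T : Sp := tv (eV l) 1 with hT
    have e0 : u = L * T := rfl
    have e1 : h * u * h⁻¹ * u⁻¹ = L * (h * T * h⁻¹ * T⁻¹) * L⁻¹ := by
      rw [e0]
      calc h * (L * T) * h⁻¹ * (L * T)⁻¹ = h * L * T * h⁻¹ * T⁻¹ * L⁻¹ := by group
        _ = L * (h * T * h⁻¹ * T⁻¹) * L⁻¹ := by
          rw [hh, hL, torus_comm]; simp only [mul_assoc]
    have e2 : tv a c = h * u * h⁻¹ * u⁻¹ := by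
      rw [e1, hT, hh, tv_conj', ap_torus_eV, tv_smul, tv_inv, tv_mul, tv_conj', mul_one, hc,
        sub_eq_add_neg]
      congr 1
      rw [ha, e0, ap_mul, hT, ap_tv_fix _ _ (bo_self _)]
    rw [e2]
    exact mul_mem hhK (inv_mem huK)
  have hQ : tv b (κ ^ 2 * c) ∈ K := by
    have := mul_mem (mul_mem hgK hP) (inv_mem hgK)
    rwa [tv_conj', hg1, tv_smul] at this
  have hR : tv (b - a) (κ ^ 2 * c) ∈ K := by
    have := mul_mem (mul_mem huK hQ) (inv_mem huK)
    rwa [tv_conj', hub] at this
  have haS : a ∈ rootSet K := by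
    rcases hcase with ⟨h9, rfl, rfl⟩ | ⟨h9, rfl, rfl⟩
    · exact (plane_general hab hγ0 hgen hq h9 rfl rfl hP hQ hR).1
    · rw [one_pow, one_mul] at hQ hR
      exact (plane_nine hab hγ0 hgen h9 rfl hP hQ hR).1
  exact eq_top_of_orbit (by omega) hgK haS
    (by rw [hg1, form_smul_right, hab, mul_one]; exact hκ) hg2

theorem goal_two (hn : 3 ≤ n) (hq : Fintype.card F = 2) {z l : Fin n} (hz : (z : ℕ) = 0)
    (hl : (l : ℕ) = n - 1) : Goal n F (regUnip l 1) := by
  classical
  have hF : ∀ x : F, x = 0 ∨ x = 1 := by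
    intro x
    by_contra hx
    push Not at hx
    have : ({0, 1, x} : Finset F).card ≤ 2 := hq ▸ Finset.card_le_univ _
    rw [Finset.card_insert_of_notMem (by simp [hx.1.symm]),
      Finset.card_insert_of_notMem (by simp [hx.2.symm]), Finset.card_singleton] at this
    omega
  have h11 : (1 : F) + 1 = 0 := by
    rcases hF (1 + 1) with h | h
    · exact h
    · exact absurd (by linear_combination h) (one_ne_zero (α := F))
  have hneg : (-1 : F) = 1 := by linear_combination (-1 : F) * h11
  have dbl : ∀ y : V, y + y = 0 := fun y => by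
    rw [← two_smul F y, show (2 : F) = 0 by linear_combination h11, zero_smul]
  obtain ⟨M, p, q, r, hp, hq', hr, hD⟩ := exists_two (F := F) hF hn
  obtain rfl : r = l := Fin.ext (by omega)
  set u : Sp := regUnip r 1 with hu
  have hpq : p ≠ q := fun e => by rw [e] at hp; omega
  have hpr : p ≠ r := fun e => by rw [e] at hp; omega
  have hqr : q ≠ r := fun e => by rw [e] at hq'; omega
  have ev : ∀ j k : Fin n, (j : ℕ) + 1 = k → ap u (eV k : V) = eV k + eV j := by
    intro j k hjk
    rw [hu, regUnip_eV]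
    funext i
    rcases i with i | i
    · simp only [Sum.elim_inl, bidiag, Matrix.of_apply, eV, Pi.add_apply, Pi.single_apply,
        Sum.inl.injEq, Fin.ext_iff]
      split_ifs <;> first | omega | simp
    · simp [eV]
  have fr : ap u (fV r : V) = fV r + eV r + eV q := by
    rw [hu, regUnip_fV]
    funext i
    rcases i with i | i
    · simp only [Sum.elim_inl, if_true, bidiag, Matrix.of_apply, eV, fV, Pi.add_apply,
        Pi.single_apply, Sum.inl.injEq, Fin.ext_iff, reduceCtorEq, if_false, one_mul]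
      split_ifs <;> first | omega | simp
    · simp only [Sum.elim_inr, bidiagDual, Matrix.of_apply, eV, fV, Pi.add_apply, Pi.single_apply,
        Sum.inr.injEq, Fin.ext_iff, reduceCtorEq, if_false, hneg, one_pow, add_zero]
      have := i.isLt
      split_ifs <;> first | omega | simp
  have fq : ap u (fV q : V) = fV q + fV r := by
    rw [hu, regUnip_fV]
    funext i
    rcases i with i | i
    · simp [fV, hqr]
    · simp only [Sum.elim_inr, bidiagDual, Matrix.of_apply, fV, Pi.add_apply, Pi.single_apply,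
        Sum.inr.injEq, Fin.ext_iff, hneg, one_pow]
      have := i.isLt
      split_ifs <;> first | omega | simp
  have fp : ap u (fV p : V) = fV p + fV q + fV r := by
    rw [hu, regUnip_fV]
    funext i
    rcases i with i | i
    · simp [fV, hpr]
    · simp only [Sum.elim_inr, bidiagDual, Matrix.of_apply, fV, Pi.add_apply, Pi.single_apply,
        Sum.inr.injEq, Fin.ext_iff, hneg, one_pow]
      have := i.isLt
      split_ifs <;> first | omega | simp
  have er : ap u (eV r : V) = eV r + eV q := ev q r (by omega)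
  have eq' : ap u (eV q : V) = eV q + eV p := ev p q (by omega)
  set a : V := eV p with ha
  set b : V := eV r + fV p + fV r with hb
  have hab : f a b = 1 := by
    rw [ha, hb, form_eV_left]; simp [eV, fV, hpr, hneg]
  obtain ⟨x, hx0, hxκ⟩ := exists_cyclic_value (by omega) hz hl (1 : F) (Or.inl hn)
  have hsp := span_pow (A := u) (by omega) (regUnip_shift (by omega) hl one_ne_zero)
    (x := x) (by rwa [show (⟨0, by omega⟩ : Fin n) = z from Fin.ext hz.symm])
  obtain ⟨g, hg1, hg2⟩ := exists_conj_pair hsp hxκ one_ne_zero hab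
  rw [one_smul] at hg1
  refine ⟨g, M, ?_⟩
  set K := Subgroup.closure ({u, g * u * g⁻¹, M * u * M⁻¹} : Set Sp) with hK
  have huK : u ∈ K := Subgroup.subset_closure (by simp)
  have hgK : g * u * g⁻¹ ∈ K := Subgroup.subset_closure (by simp)
  have hMK : M * u * M⁻¹ ∈ K := Subgroup.subset_closure (by simp)
  have haS : a ∈ rootSet K := by
    intro c
    rcases hF c with h | h <;> subst h
    · rw [tv_zero]; exact one_mem K
    · rw [← hD]; exact pow_mem (mul_mem (inv_mem huK) hMK) 3
  have hbS : b ∈ rootSet K := hg1 ▸ mem_ap hgK haS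
  have hva : f a (ap (g * u * g⁻¹) a) ≠ 0 := by rw [hg1, hab]; exact one_ne_zero
  -- the orbit of `b`
  have h1 : ap u b = fV p + fV q := by
    rw [hb, ap_add, ap_add, er, fp, fr]
    calc eV r + eV q + (fV p + fV q + fV r) + (fV r + eV r + eV q)
        = fV p + fV q + ((eV r + eV r) + (eV q + eV q) + (fV r + fV r)) := by abel
      _ = fV p + fV q := by simp only [dbl, add_zero]
  have h2 : ap u (ap u b) = fV p := by
    rw [h1, ap_add, fp, fq]
    calc fV p + fV q + fV r + (fV q + fV r) = fV p + ((fV q + fV q) + (fV r + fV r)) := by abel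
      _ = fV p := by simp only [dbl, add_zero]
  have h4 : ap u (ap u (ap u (ap u b))) = b + eV q := by
    rw [h2, fp, ap_add, ap_add, fp, fq, fr, hb]
    calc fV p + fV q + fV r + (fV q + fV r) + (fV r + eV r + eV q)
        = eV r + fV p + fV r + eV q + ((fV q + fV q) + (fV r + fV r)) := by abel
      _ = _ := by simp only [dbl, add_zero]
  set d : V := ap u b + (a + b) with hd
  set e : V := b + eV q with he
  have heS : e ∈ rootSet K := by
    rw [← h4]; exact mem_ap huK (mem_ap huK (mem_ap huK (mem_ap huK hbS)))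
  have habS : a + b ∈ rootSet K := mem_add haS hbS (by rw [hab]; exact one_ne_zero)
  have hdS : d ∈ rootSet K := mem_add (mem_ap huK hbS) habS (by
    rw [h1, hb, ha, form_add_left, form_fV_left, form_fV_left]
    simp [eV, fV, hpq, hpr, hqr, hpq.symm])
  have hde : d + e = ap u e := by
    rw [hd, he, ap_add u b (eV q), eq']
    calc ap u b + (a + b) + (b + eV q) = ap u b + (eV q + a) + (b + b) := by abel
      _ = _ := by rw [dbl, add_zero]
  have hdeS : d + e ∈ rootSet K := hde ▸ mem_ap huK heS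
  have he0 : e ≠ 0 := fun h => by
    have := congrFun h (.inr p)
    simp [he, hb, eV, fV, hpr] at this
  have hd0 : d ≠ 0 := fun h => by
    have := congrFun h (.inl p)
    rw [hd, h1, hb, ha] at this
    simp [eV, fV, hpr] at this
  have hne : d ≠ e := fun h => by
    have := congrFun h (.inl p)
    rw [hd, he, h1, hb, ha] at this
    simp [eV, fV, hpr, hpq] at this
  have hfde : f d e = 0 := by
    rw [hd, he, h1, hb, ha]
    simp only [form_add_left, form_add_right, form_fV_left, form_eV_left]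
    simp [eV, fV, hpq, hpr, hqr,
      hpq.symm, hpr.symm, hqr.symm, hneg, h11]
  exact eq_top_of_two hF (span_rootSet hgK haS hg2)
    (fun _ _ hx hy hx0 hy0 => linked_all hgK haS hva hg2 hx hy hx0 hy0)
    hdS heS hdeS hd0 he0 hne hfde

theorem main (n : ℕ) (hn : 2 ≤ n) (h22 : ¬ (n = 2 ∧ Fintype.card F = 2)) :
    ∃ u g h : Matrix.symplecticGroup (Fin n) F,
      IsNilpotent ((u : Matrix (Fin n ⊕ Fin n) (Fin n ⊕ Fin n) F) - 1) ∧
      ((u : Matrix (Fin n ⊕ Fin n) (Fin n ⊕ Fin n) F) - 1) ^ (2 * n - 1) ≠ 0 ∧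
      Subgroup.closure ({u, g * u * g⁻¹, h * u * h⁻¹} : Set (Matrix.symplecticGroup (Fin n) F)) = ⊤ := by
  obtain ⟨z, hz⟩ : ∃ z : Fin n, (z : ℕ) = 0 := ⟨⟨0, by omega⟩, rfl⟩
  obtain ⟨l, hl⟩ : ∃ l : Fin n, (l : ℕ) = n - 1 := ⟨⟨n - 1, by omega⟩, rfl⟩
  have hs := regUnip_shift (F := F) (by omega) hl one_ne_zero
  have hgoal : Goal n F (regUnip l 1) := by
    have h2 : 2 ≤ Fintype.card F := Fintype.one_lt_card
    by_cases hq2 : Fintype.card F = 2
    · exact goal_two (by by_contra h; exact h22 ⟨by omega, hq2⟩) hq2 hz hl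
    by_cases hq3 : Fintype.card F = 3
    · exact goal_three hn hq3 hz hl (o := ⟨1, by omega⟩) rfl
    exact goal_large hn (by omega) hz hl
  obtain ⟨g, h, hgh⟩ := hgoal
  exact ⟨_, g, h, hs.nilpotent, hs.pow_ne_zero (by omega), hgh⟩

end CfsgLib.SpGen3
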