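import Cfsg.Agent.Chev.SpSlim.Base

/-!
A regular unipotent element of `Sp`.
-/

set_option autoImplicit false

namespace CfsgLib.SpGen3

open Matrix CfsgLib.SpGeom CfsgLib.Chev.SpSlim

universe u

variable {F : Type u} [Field F] {n : ℕ}

local notation "V" => (Fin n ⊕ Fin n → F)
local notation "Sp" => Matrix.symplecticGroup (Fin n) F
local notation "f" => Cfsg.sympForm n F

theorem levi_mem {A B : Matrix (Fin n) (Fin n) F} (h : Aᵀ * B = 1) :
    fromBlocks A 0 0 B ∈ Matrix.symplecticGroup (Fin n) F := by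
  have h' : Bᵀ * A = 1 := by
    rw [← Matrix.transpose_transpose A, ← Matrix.transpose_mul, h, Matrix.transpose_one]
  rw [SymplecticGroup.mem_iff', Matrix.J, fromBlocks_transpose, fromBlocks_multiply,
    fromBlocks_multiply]
  simp [h, h']

/-- The element acting as `A` on the `e`s and as `B` on the `f`s. -/
def levi (A B : Matrix (Fin n) (Fin n) F) (h : Aᵀ * B = 1) : Matrix.symplecticGroup (Fin n) F :=
  ⟨fromBlocks A 0 0 B, levi_mem h⟩

theorem ap_levi (A B : Matrix (Fin n) (Fin n) F) (h : Aᵀ * B = 1) (x : V) :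
    ap (levi A B h) x = Sum.elim (A *ᵥ (x ∘ Sum.inl)) (B *ᵥ (x ∘ Sum.inr)) := by
  simp [ap, levi, fromBlocks_mulVec]

theorem levi_mul {A B C D : Matrix (Fin n) (Fin n) F} (h : Aᵀ * B = 1) (h' : Cᵀ * D = 1) :
    levi A B h * levi C D h' = levi (A * C) (B * D) (by
      rw [Matrix.transpose_mul, Matrix.mul_assoc, ← Matrix.mul_assoc Aᵀ, h, Matrix.one_mul, h']) :=
  Subtype.ext (by simp [levi, fromBlocks_multiply])

theorem levi_congr {A B C D : Matrix (Fin n) (Fin n) F} (h : Aᵀ * B = 1) (h' : Cᵀ * D = 1)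
    (e : A = C) : levi A B h = levi C D h' := by
  subst e
  have : B = D := by
    have hA : B * Aᵀ = 1 := mul_eq_one_comm.1 h
    calc B = B * (Aᵀ * D) := by rw [h', Matrix.mul_one]
      _ = D := by rw [← Matrix.mul_assoc, hA, Matrix.one_mul]
  subst this
  rfl

/-- The scalar element `diag(t, t⁻¹)`. -/
def torus (t : F) (ht : t ≠ 0) : Matrix.symplecticGroup (Fin n) F :=
  levi (t • 1) (t⁻¹ • 1) (by simp [smul_smul, inv_mul_cancel₀ ht])

theorem torus_comm (t : F) (ht : t ≠ 0) {A B : Matrix (Fin n) (Fin n) F} (h : Aᵀ * B = 1) :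
    torus t ht * levi A B h = levi A B h * torus t ht := by
  rw [torus, levi_mul, levi_mul]
  exact levi_congr _ _ (by simp)

theorem ap_torus_eV (t : F) (ht : t ≠ 0) (k : Fin n) : ap (torus t ht) (eV k : V) = t • eV k := by
  rw [torus, ap_levi]
  funext i
  rcases i with i | i <;> simp [eV, Pi.single_apply, Matrix.smul_mulVec]

/-- The bidiagonal matrix with ones on and just above the diagonal. -/
def bidiag (n : ℕ) (F : Type u) [Field F] : Matrix (Fin n) (Fin n) F :=
  Matrix.of fun i j => if (j : ℕ) = i ∨ (j : ℕ) = i + 1 then 1 else 0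

/-- The inverse transpose of `bidiag`. -/
def bidiagDual (n : ℕ) (F : Type u) [Field F] : Matrix (Fin n) (Fin n) F :=
  Matrix.of fun i j => if (j : ℕ) ≤ i then (-1) ^ ((i : ℕ) - j) else 0

theorem bidiag_dual : (bidiag n F)ᵀ * bidiagDual n F = 1 := by
  ext i j
  rw [Matrix.mul_apply]
  simp only [Matrix.transpose_apply]
  rcases Nat.eq_zero_or_pos (i : ℕ) with hi | hi
  · rw [Finset.sum_eq_single i]
    · simp only [bidiag, bidiagDual, Matrix.of_apply, Matrix.one_apply, true_or, if_true, one_mul,
        Fin.ext_iff]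
      split_ifs with h1 h2 h2
      · simp [h2]
      · omega
      · omega
      · rfl
    · intro k _ hk
      have : ¬((i : ℕ) = k ∨ (i : ℕ) = (k : ℕ) + 1) := by
        have : (i : ℕ) ≠ k := fun e => hk (Fin.ext e.symm)
        omega
      simp [bidiag, this]
    · simp
  · let p : Fin n := ⟨(i : ℕ) - 1, by omega⟩
    have hp : p ≠ i := fun e => by simp [p, Fin.ext_iff] at e; omega
    rw [Finset.sum_eq_add p i hp]
    · simp only [bidiag, bidiagDual, Matrix.of_apply, Matrix.one_apply, true_or, if_true, one_mul,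
        Fin.ext_iff, p]
      rw [if_pos (Or.inr (by omega)), one_mul]
      split_ifs with h1 h2 h3 h4 h5 <;> try omega
      · rw [show (i : ℕ) - j = ((i : ℕ) - 1 - j) + 1 by omega, pow_succ]; ring
      · simp [show (i : ℕ) - j = 0 by omega]
      · simp
    · intro k _ hk
      have h1 : (k : ℕ) ≠ (i : ℕ) - 1 := fun e => hk.1 (Fin.ext e)
      have h2 : (k : ℕ) ≠ i := fun e => hk.2 (Fin.ext e)
      have : ¬((i : ℕ) = k ∨ (i : ℕ) = (k : ℕ) + 1) := by omega
      simp [bidiag, this]
    · simp
    · simp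

/-- The regular unipotent element. -/
def regUnip (k : Fin n) (s : F) : Matrix.symplecticGroup (Fin n) F :=
  levi (bidiag n F) (bidiagDual n F) bidiag_dual * tv (eV k) s

theorem regUnip_eV (k j : Fin n) (s : F) :
    ap (regUnip k s) (eV j : V) = Sum.elim (fun i => bidiag n F i j) 0 := by
  rw [regUnip, ap_mul, ap_tv_fix _ _ (by rw [bo_eV_right]; simp [eV]), ap_levi]
  funext i
  rcases i with i | i
  · simp only [Sum.elim_inl, Matrix.mulVec, dotProduct, Function.comp_apply, eV]
    rw [Finset.sum_eq_single j] <;> simp +contextual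
  · simp only [Sum.elim_inr, Pi.zero_apply]
    rw [show (eV j : V) ∘ Sum.inr = 0 from funext fun l => by simp [eV], Matrix.mulVec_zero,
      Pi.zero_apply]

theorem regUnip_fV (k j : Fin n) (s : F) :
    ap (regUnip k s) (fV j : V) =
      Sum.elim (fun i => if j = k then s * bidiag n F i k else 0) (fun i => bidiagDual n F i j) := by
  have h : bo (eV k : V) (fV j) = if j = k then 1 else 0 := by
    rw [bo_fV_right]
    simp [eV, Pi.single_apply]
  rw [regUnip, ap_mul, ap_tv, h, ap_levi]
  funext i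
  rcases i with i | i
  · simp only [Sum.elim_inl, Matrix.mulVec, dotProduct, Function.comp_apply, eV, fV, Pi.add_apply,
      Pi.smul_apply]
    rw [Finset.sum_eq_single k] <;> simp +contextual [mul_comm]
  · simp only [Sum.elim_inr, Matrix.mulVec, dotProduct, Function.comp_apply, eV, fV, Pi.add_apply,
      Pi.smul_apply]
    rw [Finset.sum_eq_single j] <;> simp +contextual

/-- The flag order of the coordinates. -/
def idx (n : ℕ) : Fin n ⊕ Fin n → ℕ
  | .inl i => i
  | .inr i => 2 * n - 1 - i

theorem idx_lt (p : Fin n ⊕ Fin n) : idx n p < 2 * n := by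
  rcases p with i | i <;> have := i.isLt <;> simp [idx] <;> omega

theorem idx_inj {p q : Fin n ⊕ Fin n} (h : idx n p = idx n q) : p = q := by
  rcases p with i | i <;> rcases q with j | j <;> have := i.isLt <;> have := j.isLt <;>
    simp [idx] at h <;> first | omega | simp [Fin.ext_iff] <;> omega

theorem idx_surj {k : ℕ} (h : k < 2 * n) : ∃ p, idx n p = k := by
  by_cases hk : k < n
  · exact ⟨.inl ⟨k, hk⟩, rfl⟩
  · exact ⟨.inr ⟨2 * n - 1 - k, by omega⟩, by simp [idx]; omega⟩

/-- Strictly upper triangular for the flag order with nonzero first diagonal. -/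
def IsShift (N : Matrix (Fin n ⊕ Fin n) (Fin n ⊕ Fin n) F) : Prop :=
  ∀ p q, (idx n q ≤ idx n p → N p q = 0) ∧ (idx n q = idx n p + 1 → N p q ≠ 0)

theorem regUnip_shift (hn : 1 ≤ n) {k : Fin n} (hk : (k : ℕ) = n - 1) {s : F} (hs : s ≠ 0) :
    IsShift (((regUnip k s : Sp) : Matrix (Fin n ⊕ Fin n) (Fin n ⊕ Fin n) F) - 1) := by
  intro p q
  have he : ∀ p q, ((regUnip k s : Sp) : Matrix (Fin n ⊕ Fin n) (Fin n ⊕ Fin n) F) p q =
      ap (regUnip k s) (Pi.single q 1) p := fun p q => by simp [ap, Matrix.mulVec_single_one]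
  rw [Matrix.sub_apply, he]
  rcases q with j | j
  · rw [show (Pi.single (Sum.inl j) 1 : V) = eV j from rfl, regUnip_eV]
    rcases p with i | i
    · simp only [Sum.elim_inl, bidiag, Matrix.of_apply, Matrix.one_apply, idx, Sum.inl.injEq,
        Fin.ext_iff]
      constructor <;> intro h <;> split_ifs <;> first | omega | simp
    · have := i.isLt; have := j.isLt
      simp only [Sum.elim_inr, idx, Pi.zero_apply, Matrix.one_apply, reduceCtorEq, if_false,
        sub_self, ne_eq, not_true_eq_false]
      exact ⟨fun _ => trivial, fun h => by omega⟩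
  · rw [show (Pi.single (Sum.inr j) 1 : V) = fV j from rfl, regUnip_fV]
    rcases p with i | i
    · have := i.isLt; have := j.isLt
      simp only [Sum.elim_inl, idx, Matrix.one_apply, reduceCtorEq, if_false, sub_zero, bidiag,
        Matrix.of_apply, Fin.ext_iff]
      refine ⟨fun h => by omega, fun h => ?_⟩
      rw [if_pos (by omega), if_pos (by omega), mul_one]
      exact hs
    · have := i.isLt; have := j.isLt
      simp only [Sum.elim_inr, idx, Matrix.one_apply, bidiagDual, Matrix.of_apply, Sum.inr.injEq,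
        Fin.ext_iff]
      constructor <;> intro h
      · split_ifs with h1 h2 h2 <;> first | omega | simp [h2] | simp
      · rw [if_pos (by omega), if_neg (by omega), sub_zero]
        exact pow_ne_zero _ (neg_ne_zero.2 one_ne_zero)

theorem IsShift.pow {N : Matrix (Fin n ⊕ Fin n) (Fin n ⊕ Fin n) F} (h : IsShift N) :
    ∀ (k : ℕ) (p q : Fin n ⊕ Fin n),
      (idx n q < idx n p + k → (N ^ k) p q = 0) ∧ (idx n q = idx n p + k → (N ^ k) p q ≠ 0) := by
  intro k
  induction k with
  | zero =>
    intro p q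
    refine ⟨fun hl => ?_, fun he => ?_⟩
    · rw [pow_zero, Matrix.one_apply_ne]; rintro rfl; omega
    · obtain rfl := idx_inj (show idx n q = idx n p by simpa using he)
      rw [pow_zero, Matrix.one_apply_eq]; exact one_ne_zero
  | succ k ih =>
    intro p q
    rw [pow_succ', Matrix.mul_apply]
    refine ⟨fun hl => Finset.sum_eq_zero fun r _ => ?_, fun he => ?_⟩
    · by_cases hr : idx n r ≤ idx n p
      · rw [(h p r).1 hr, zero_mul]
      · rw [(ih r q).1 (by omega), mul_zero]
    · obtain ⟨r₀, hr₀⟩ := idx_surj (n := n) (k := idx n p + 1) (by have := idx_lt q; omega)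
      rw [Finset.sum_eq_single r₀]
      · exact mul_ne_zero ((h p r₀).2 hr₀) ((ih r₀ q).2 (by omega))
      · intro r _ hr
        by_cases hrp : idx n r ≤ idx n p
        · rw [(h p r).1 hrp, zero_mul]
        · have : idx n r ≠ idx n p + 1 := fun e => hr (idx_inj (e.trans hr₀.symm))
          rw [(ih r q).1 (by omega), mul_zero]
      · simp

theorem IsShift.nilpotent {N : Matrix (Fin n ⊕ Fin n) (Fin n ⊕ Fin n) F} (h : IsShift N) :
    IsNilpotent N := ⟨2 * n, Matrix.ext fun p q => (h.pow (2 * n) p q).1 (by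
      have := idx_lt q; omega)⟩

theorem IsShift.pow_ne_zero {N : Matrix (Fin n ⊕ Fin n) (Fin n ⊕ Fin n) F} (hn : 1 ≤ n)
    (h : IsShift N) : N ^ (2 * n - 1) ≠ 0 := fun e => by
  have := (h.pow (2 * n - 1) (.inl ⟨0, hn⟩) (.inr ⟨0, hn⟩)).2 (by simp [idx])
  rw [e] at this
  exact this rfl

/-- A vector with nonzero top coordinate is cyclic. -/
theorem span_pow {A : Sp} (hn : 1 ≤ n)
    (h : IsShift ((A : Matrix (Fin n ⊕ Fin n) (Fin n ⊕ Fin n) F) - 1)) {x : V}
    (hx : x (.inr ⟨0, hn⟩) ≠ 0) :
    Submodule.span F (Set.range fun k : ℕ => ap (A ^ k) x) = ⊤ := by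
  set N := (A : Matrix (Fin n ⊕ Fin n) (Fin n ⊕ Fin n) F) - 1 with hN
  set W := Submodule.span F (Set.range fun k : ℕ => ap (A ^ k) x) with hW
  have hAW : ∀ y ∈ W, ap A y ∈ W := by
    intro y hy
    induction hy using Submodule.span_induction with
    | mem y hy =>
      obtain ⟨k, rfl⟩ := hy
      exact Submodule.subset_span ⟨k + 1, by simp only [pow_succ', ap_mul]⟩
    | zero => rw [ap_zero]; exact zero_mem W
    | add y z _ _ hy hz => rw [ap_add]; exact add_mem hy hz
    | smul r y _ hy => rw [ap_smul]; exact W.smul_mem r hy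
  have hNW : ∀ k : ℕ, (N ^ k) *ᵥ x ∈ W := by
    intro k
    induction k with
    | zero =>
      rw [pow_zero, Matrix.one_mulVec]
      exact Submodule.subset_span ⟨0, by simp only [pow_zero, ap_one]⟩
    | succ k ih =>
      rw [pow_succ', ← Matrix.mulVec_mulVec, hN, Matrix.sub_mulVec, Matrix.one_mulVec]
      exact sub_mem (hAW _ ih) ih
  have key : ∀ i : ℕ, ∀ z : V, (∀ p, i ≤ idx n p → z p = 0) → z ∈ W := by
    intro i
    induction i with
    | zero =>
      intro z hz
      rw [show z = 0 from funext fun p => hz p (Nat.zero_le _)]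
      exact zero_mem W
    | succ i ih =>
      intro z hz
      by_cases hi : i < 2 * n
      · obtain ⟨p₀, hp₀⟩ := idx_surj hi
        set y := (N ^ (2 * n - 1 - i)) *ᵥ x with hy
        have hy0 : y p₀ ≠ 0 := by
          rw [hy, Matrix.mulVec, dotProduct, Finset.sum_eq_single (Sum.inr ⟨0, hn⟩)]
          · exact mul_ne_zero ((h.pow _ _ _).2 (by rw [hp₀]; simp [idx]; omega)) hx
          · intro q _ hq
            have : idx n q ≠ 2 * n - 1 := fun e => hq (idx_inj (by simpa [idx] using e))
            have := idx_lt q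
            rw [(h.pow _ _ _).1 (by omega), zero_mul]
          · simp
        have hyz : ∀ p, i + 1 ≤ idx n p → y p = 0 := fun p hp => by
          rw [hy, Matrix.mulVec, dotProduct]
          refine Finset.sum_eq_zero fun q _ => ?_
          have := idx_lt q
          rw [(h.pow _ _ _).1 (by omega), zero_mul]
        have hz' : z - (z p₀ / y p₀) • y ∈ W := ih _ fun p hp => by
          rcases Nat.lt_or_ge i (idx n p) with hlt | hge
          · simp [hz p hlt, hyz p hlt]
          · have : p = p₀ := idx_inj (by omega)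
            subst this
            simp [hy0]
        simpa [← hy] using add_mem hz' (W.smul_mem (z p₀ / y p₀) (hNW (2 * n - 1 - i)))
      · exact ih z fun p hp => by have := idx_lt p; omega
  exact top_le_iff.1 fun z _ => key (2 * n) z fun p hp => by have := idx_lt p; omega

/-- Move a cyclic vector of `A` and its image onto a prescribed pair. -/
theorem exists_conj_pair {A : Sp} {x a b : V}
    (hsp : Submodule.span F (Set.range fun k : ℕ => ap (A ^ k) x) = ⊤) {κ : F}
    (hκ : f x (ap A x) = κ) (hκ0 : κ ≠ 0) (hab : f a b = 1) :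
    ∃ g : Sp, ap (g * A * g⁻¹) a = κ • b ∧
      Submodule.span F (Set.range fun k : ℕ => ap ((g * A * g⁻¹) ^ k) a) = ⊤ := by
  obtain ⟨g, hg1, hg2⟩ := exists_mulVec_pair (u := x) (v := κ⁻¹ • ap A x) (u' := a) (v' := b)
    (by rw [form_smul_right, hκ, inv_mul_cancel₀ hκ0]) hab
  have hg1' : ap g x = a := hg1
  have hg2' : ap g (κ⁻¹ • ap A x) = b := hg2
  have hinv : ap g⁻¹ a = x := ap_inv_of g hg1'
  refine ⟨g, ?_, ?_⟩
  · rw [ap_mul, ap_mul, hinv, ← hg2', ap_smul, smul_smul, mul_inv_cancel₀ hκ0, one_smul]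
  · have hr : (Set.range fun k : ℕ => ap ((g * A * g⁻¹) ^ k) a) =
        (Matrix.mulVecLin (g : Matrix (Fin n ⊕ Fin n) (Fin n ⊕ Fin n) F)) ''
          (Set.range fun k : ℕ => ap (A ^ k) x) := by
      rw [← Set.range_comp]
      congr 1
      funext k
      rw [conj_pow, ap_mul, ap_mul, hinv]
      rfl
    rw [hr, Submodule.span_image, hsp, Submodule.map_top, LinearMap.range_eq_top]
    exact fun y => ⟨ap g⁻¹ y, mulVec_inv g y⟩

end CfsgLib.SpGen3
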