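import Cfsg.Agent.SpGen3.Closure

/-!
Three transvections with centres in a hyperbolic plane.
-/

set_option autoImplicit false

namespace CfsgLib.SpGen3

open Matrix CfsgLib.SpGeom CfsgLib.Chev.SpSlim

universe u

variable {F : Type u} [Field F] [Fintype F] {n : ℕ}

local notation "V" => (Fin n ⊕ Fin n → F)
local notation "Sp" => Matrix.symplecticGroup (Fin n) F
local notation "f" => Cfsg.sympForm n F

/-- An additive subgroup containing the powers of `g ^ j` is everything. -/
theorem addSubgroup_eq_top {g : F} (hg : g ≠ 0) (hgen : orderOf g = Fintype.card F - 1)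
    (hq : 4 ≤ Fintype.card F) {j : ℕ} (hj : j = 2 ∨ j = 4)
    (h9 : Fintype.card F = 9 → j = 2) (A : AddSubgroup F) (hA : ∀ k : ℕ, (g ^ j) ^ k ∈ A) :
    A = ⊤ := by
  classical
  set R : Subring F := Subring.closure {g ^ j} with hR
  have hRA : ∀ y ∈ R, y ∈ A := by
    intro y hy
    rw [hR, Subring.mem_closure_iff] at hy
    refine (AddSubgroup.closure_le A).2 ?_ hy
    intro z hz
    obtain ⟨k, rfl⟩ := Submonoid.mem_closure_singleton.1 hz
    exact hA k
  let K : Subfield F :=
    { R with
      inv_mem' := fun y hy => by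
        by_cases hy0 : y = 0
        · rw [hy0, _root_.inv_zero]; exact R.zero_mem
        · rw [show y⁻¹ = y ^ (Fintype.card F - 2) from (eq_inv_of_mul_eq_one_left (by
            rw [← pow_succ, show Fintype.card F - 2 + 1 = Fintype.card F - 1 by omega,
              FiniteField.pow_card_sub_one_eq_one y hy0])).symm]
          exact R.pow_mem hy _ }
  have hxK : g ^ j ∈ K := show g ^ j ∈ R from Subring.subset_closure rfl
  suffices hK : ∀ y : F, y ∈ K from (AddSubgroup.eq_top_iff' A).2 fun y => hRA y (hK y)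
  set r := Fintype.card K with hr
  have hr2 : 2 ≤ r := Fintype.one_lt_card
  obtain ⟨d, hd⟩ : ∃ d : ℕ, Fintype.card F = r ^ d := ⟨_, Module.card_eq_pow_finrank⟩
  have hx0 : (⟨g ^ j, hxK⟩ : K) ≠ 0 := fun h => pow_ne_zero j hg (congrArg Subtype.val h)
  have hpow : g ^ (j * (r - 1)) = 1 := by
    have e := congrArg Subtype.val (FiniteField.pow_card_sub_one_eq_one _ hx0)
    rw [pow_mul]
    simpa using e
  have hdvd : Fintype.card F - 1 ∣ j * (r - 1) := hgen ▸ orderOf_dvd_of_pow_eq_one hpow
  have hd1 : d = 1 := by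
    by_contra hd1
    have hd2 : 2 ≤ d := by
      rcases d with _ | _ | d
      · simp at hd; omega
      · exact absurd rfl hd1
      · omega
    have hsq : r * r ≤ Fintype.card F := by
      rw [hd, ← pow_two]; exact Nat.pow_le_pow_right (by omega) hd2
    have hle : Fintype.card F - 1 ≤ j * (r - 1) :=
      Nat.le_of_dvd (Nat.mul_pos (by omega) (by omega)) hdvd
    have hr3 : r ≤ 3 := by
      by_contra h
      have : 4 * r ≤ r * r := Nat.mul_le_mul_right r (by omega)
      have : j * (r - 1) ≤ 4 * (r - 1) := Nat.mul_le_mul_right _ (by omega)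
      omega
    interval_cases r
    · have hd3 : d ≤ 2 := by
        by_contra h
        have : 2 ^ 3 ≤ 2 ^ d := Nat.pow_le_pow_right (by omega) (by omega)
        omega
      obtain rfl : d = 2 := by omega
      rcases hj with rfl | rfl <;> rw [hd] at hdvd hle <;> norm_num at hdvd
    · have hd3 : d ≤ 2 := by
        by_contra h
        have : 3 ^ 3 ≤ 3 ^ d := Nat.pow_le_pow_right (by omega) (by omega)
        omega
      obtain rfl : d = 2 := by omega
      rw [h9 (by rw [hd]; norm_num), hd] at hle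
      norm_num at hle
  intro y
  have hcard : r = Fintype.card F := by rw [hd, hd1, pow_one]
  obtain ⟨⟨z, hz⟩, hzy⟩ := ((Fintype.bijective_iff_injective_and_card (Subtype.val : K → F)).2
    ⟨Subtype.val_injective, hcard⟩).2 y
  rw [← hzy]
  exact hz

variable {K : Subgroup (Matrix.symplecticGroup (Fin n) F)}

theorem pair_ne_one {a b : V} (hab : f a b = 1) : f a b ≠ 0 := by rw [hab]; exact one_ne_zero

/-- The parameters in `K` at a vector. -/
def paramAt (K : Subgroup (Matrix.symplecticGroup (Fin n) F)) (v : Fin n ⊕ Fin n → F) (m : F) :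
    AddSubgroup F where
  carrier := {r | tv v (r * m) ∈ K}
  zero_mem' := by simp [tv_zero, one_mem]
  add_mem' {r r'} h h' := by
    simp only [Set.mem_setOf_eq] at *
    rw [add_mul, ← tv_mul]; exact mul_mem h h'
  neg_mem' {r} h := by
    simp only [Set.mem_setOf_eq] at *
    rw [neg_mul, ← tv_inv]; exact inv_mem h

/-- The general case. -/
theorem plane_general {a b : V} (hab : f a b = 1) {g : F} (hg : g ≠ 0)
    (hgen : orderOf g = Fintype.card F - 1) (hq : 4 ≤ Fintype.card F) (h9 : Fintype.card F ≠ 9)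
    {c m : F} (hc : c = g⁻¹ ^ 2 - 1) (hm : m = g ^ 2 * c)
    (hP : tv a c ∈ K) (hQ : tv b m ∈ K) (hR : tv (b - a) m ∈ K) :
    a ∈ rootSet K ∧ b ∈ rootSet K := by
  set v₀ : V := b - a with hv₀
  set A : Sp := (tv a c)⁻¹ * tv b m with hA
  have hAK : A ∈ K := mul_mem (inv_mem hP) hQ
  have hba : f b a = -1 := by rw [form_skew, hab]
  have hmg : g ^ 2 * c = 1 - g ^ 2 := by rw [hc]; field_simp
  have hQv : ap (tv b m) v₀ = -a + g ^ 2 • b := by
    rw [ap, tv_mulVec, hv₀, form_sub_left, form_self, hab]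
    have : g ^ 2 = 1 - m := by rw [hm, hmg]; ring
    rw [this]
    module
  have hAv : ap A v₀ = g ^ 2 • v₀ := by
    rw [hA, ap_mul, hQv, tv_inv, ap, tv_mulVec, form_add_left, form_smul_left, hba]
    have e : -(c * (f (-a) a + g ^ 2 * -1)) = g ^ 2 * c := by
      rw [show (-a : V) = (-1 : F) • a by simp, form_smul_left, form_self]; ring
    rw [neg_mul, e, hmg, hv₀]
    module
  have hApow : ∀ k : ℕ, ap (A ^ k) v₀ = (g ^ 2) ^ k • v₀ := by
    intro k
    induction k with
    | zero => simp [ap_one]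
    | succ k ih => rw [pow_succ', ap_mul, ih, ap_smul, hAv, smul_smul, ← pow_succ]
  have hmem : ∀ k : ℕ, (g ^ 4) ^ k ∈ paramAt K v₀ m := fun k => by
    show tv v₀ ((g ^ 4) ^ k * m) ∈ K
    have e : (g ^ 4) ^ k = ((g ^ 2) ^ k) ^ 2 := by
      rw [← pow_mul, ← pow_mul, ← pow_mul]; congr 1; omega
    rw [e, ← tv_smul, ← hApow, ← tv_conj']
    exact mul_mem (mul_mem (pow_mem hAK k) hR) (inv_mem (pow_mem hAK k))
  have htop := addSubgroup_eq_top hg hgen hq (Or.inr rfl) (fun h => absurd h h9) _ hmem
  have hc0 : c ≠ 0 := by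
    intro h
    rw [hc, sub_eq_zero, inv_pow, inv_eq_one] at h
    have := orderOf_dvd_of_pow_eq_one h
    rw [hgen] at this
    have := Nat.le_of_dvd (by norm_num) this
    omega
  have hm0 : m ≠ 0 := by rw [hm]; exact mul_ne_zero (pow_ne_zero _ hg) hc0
  have hv : v₀ ∈ rootSet K := fun r => by
    have : r / m ∈ paramAt K v₀ m := by rw [htop]; exact AddSubgroup.mem_top _
    have e : tv v₀ (r / m * m) ∈ K := this
    rwa [div_mul_cancel₀ _ hm0] at e
  have hv1 : ap (tv a c) v₀ ∈ rootSet K := mem_ap hP hv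
  have hv1e : ap (tv a c) v₀ = v₀ + (-c) • a := by
    rw [ap, tv_mulVec, hv₀, form_sub_left, form_self, hba]; module
  rw [hv1e] at hv1
  have hne : f v₀ (v₀ + (-c) • a) ≠ 0 := by
    rw [form_add_right, form_smul_right, form_self, hv₀, form_sub_left, form_self, hba]
    simpa using hc0
  have ha : a ∈ rootSet K := by
    have e := mem_comb hv hv1 hne c⁻¹ (-c⁻¹)
    rwa [show c⁻¹ • v₀ + (-c⁻¹) • (v₀ + (-c) • a) = a by
      rw [smul_add, smul_smul]; field_simp; module] at e
  have hva : f v₀ a ≠ 0 := by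
    rw [hv₀, form_sub_left, form_self, hba]; simp
  refine ⟨ha, ?_⟩
  have e := mem_add hv ha hva
  rwa [hv₀, sub_add_cancel] at e

/-- The field of nine elements. -/
theorem plane_nine {a b : V} (hab : f a b = 1) {g : F} (hg : g ≠ 0)
    (hgen : orderOf g = Fintype.card F - 1) (h9 : Fintype.card F = 9)
    {c : F} (hc : c = g ^ 2 - 1)
    (hP : tv a c ∈ K) (hQ : tv b c ∈ K) (hR : tv (b - a) c ∈ K) :
    a ∈ rootSet K ∧ b ∈ rootSet K := by
  have h3 : (3 : F) = 0 := by
    have e : ((9 : ℕ) : F) = 0 := h9 ▸ FiniteField.cast_card_eq_zero F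
    have e' : (3 : F) * 3 = 0 := by norm_num at e ⊢; exact e
    exact (mul_self_eq_zero).1 e'
  have hi : (g ^ 2) * (g ^ 2) = -1 := by
    have h8 : g ^ 8 = 1 := by
      rw [show 8 = orderOf g by rw [hgen, h9]]; exact pow_orderOf_eq_one g
    have h4 : g ^ 4 ≠ 1 := fun h => by
      have := orderOf_dvd_of_pow_eq_one h
      rw [hgen, h9] at this
      norm_num at this
    have : (g ^ 4 - 1) * (g ^ 4 + 1) = 0 := by linear_combination h8
    rcases mul_eq_zero.1 this with h | h
    · exact absurd (sub_eq_zero.1 h) h4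
    · linear_combination h
  set i := g ^ 2 with hidef
  have hba : f b a = -1 := by rw [form_skew, hab]
  set ξ : F := -(1 + i) with hξ
  have h1 : ap (tv a c) b = b + (-c) • a := by
    rw [ap, tv_mulVec, hba]; module
  have h2 : ap (tv (b - a) c) (b + (-c) • a) = ξ • a := by
    rw [ap, tv_mulVec]
    simp only [form_add_left, form_smul_left, form_sub_right, form_self, hba, hab]
    have e1 : c * (0 + -c * 1 - (-1 + -c * 0)) = -1 := by
      rw [hc]; linear_combination (-1) * hi + i * h3
    rw [e1, hξ, hc]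
    have e2 : -(1 + i) = -(i - 1) + 1 := by linear_combination (-1) * h3
    rw [e2]
    module
  have h3' : tv a (1 + i) ∈ K := by
    have e := mul_mem (mul_mem hR (mul_mem (mul_mem hP hQ) (inv_mem hP))) (inv_mem hR)
    rw [tv_conj', h1, tv_conj', h2, tv_smul] at e
    rwa [show ξ ^ 2 * c = 1 + i by
      rw [hξ, hc]; linear_combination (i + 1) * hi + (-(i + 1)) * h3] at e
  let B : AddSubgroup F :=
    { carrier := {r | tv a r ∈ K ∧ tv a (i * r) ∈ K}
      zero_mem' := by simp [tv_zero, one_mem]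
      add_mem' := fun {r r'} h h' => by
        simp only [Set.mem_setOf_eq] at *
        exact ⟨by rw [← tv_mul]; exact mul_mem h.1 h'.1,
          by rw [mul_add, ← tv_mul]; exact mul_mem h.2 h'.2⟩
      neg_mem' := fun {r} h => by
        simp only [Set.mem_setOf_eq] at *
        exact ⟨by rw [← tv_inv]; exact inv_mem h.1,
          by rw [mul_neg, ← tv_inv]; exact inv_mem h.2⟩ }
  have hcK : tv a (i - 1) ∈ K := hc ▸ hP
  have htwo : tv a (1 + i + -(i - 1)) ∈ K := by
    rw [← tv_mul, ← tv_inv]; exact mul_mem h3' (inv_mem hcK)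
  have hone : tv a (1 : F) ∈ K := by
    have e := inv_mem htwo
    rw [tv_inv] at e
    rwa [show -(1 + i + -(i - 1)) = (1 : F) by linear_combination (-1) * h3] at e
  have hiK : tv a (i * 1) ∈ K := by
    have e := mul_mem h3' (inv_mem hone)
    rw [tv_inv, tv_mul] at e
    rwa [show 1 + i + -1 = i * 1 by ring] at e
  have hstep : ∀ r : F, r ∈ B → i * r ∈ B := fun r hr => ⟨hr.2, by
    rw [← mul_assoc, hi, neg_one_mul, ← tv_inv]; exact inv_mem hr.1⟩
  have hB : ∀ k : ℕ, (g ^ 2) ^ k ∈ B := by
    intro k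
    induction k with
    | zero => rw [pow_zero]; exact ⟨hone, hiK⟩
    | succ k ih => rw [pow_succ']; exact hstep _ ih
  have htop := addSubgroup_eq_top hg hgen (by omega) (Or.inl rfl) (fun _ => rfl) B hB
  have ha : a ∈ rootSet K := fun r => ((htop ▸ AddSubgroup.mem_top r : r ∈ B)).1
  refine ⟨ha, ?_⟩
  have hqa : ap (tv b c) a ∈ rootSet K := mem_ap hQ ha
  have hqe : ap (tv b c) a = a + c • b := by rw [ap, tv_mulVec, hab, mul_one]
  rw [hqe] at hqa
  have hc0 : c ≠ 0 := by
    intro h
    rw [h] at hc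
    have : i = 1 := by linear_combination -hc
    rw [this] at hi
    exact one_ne_zero (α := F) (by linear_combination (-1 : F) * hi + h3)
  have hne : f a (a + c • b) ≠ 0 := by
    rw [form_add_right, form_smul_right, form_self, hab, zero_add, mul_one]; exact hc0
  have e := mem_comb ha hqa hne (-c⁻¹) c⁻¹
  rwa [show (-c⁻¹) • a + c⁻¹ • (a + c • b) = b by
    rw [smul_add, smul_smul, inv_mul_cancel₀ hc0]; module] at e

end CfsgLib.SpGen3
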